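import Mathlib

/-!
# The semidirect product of a Heisenberg group with a group of isometries
-/

set_option autoImplicit false
set_option linter.unusedSectionVars false

namespace Cfsg.Agent.Lib.Helper39.Weil

/-- an alternating form together with a group acting by isometries -/
structure SData (F V K : Type*) [Field F] [AddCommGroup V] [Module F V] [Group K] where
  B : V →ₗ[F] V →ₗ[F] F
  alt : ∀ v, B v v = 0
  ρ : K →* (V →ₗ[F] V)
  inv : ∀ k v w, B (ρ k v) (ρ k w) = B v w

variable {F V K : Type*} [Field F] [AddCommGroup V] [Module F V] [Group K]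

namespace SData

variable (D : SData F V K)

theorem skew (v w : V) : D.B v w = - D.B w v := by
  have h := D.alt (v + w)
  simp only [map_add, LinearMap.add_apply, D.alt, zero_add, add_zero] at h
  exact eq_neg_of_add_eq_zero_right h

theorem ρ_inv_apply (k : K) (v : V) : D.ρ k⁻¹ (D.ρ k v) = v := by
  rw [← Module.End.mul_apply, ← map_mul, inv_mul_cancel, map_one, Module.End.one_apply]

theorem ρ_apply_inv (k : K) (v : V) : D.ρ k (D.ρ k⁻¹ v) = v := by
  rw [← Module.End.mul_apply, ← map_mul, mul_inv_cancel, map_one, Module.End.one_apply]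

theorem ρ_injective (k : K) : Function.Injective (D.ρ k) := by
  intro v w h
  rw [← D.ρ_inv_apply k v, h, D.ρ_inv_apply]

theorem ρ_eq_zero_iff (k : K) (v : V) : D.ρ k v = 0 ↔ v = 0 := by
  constructor
  · intro h
    apply D.ρ_injective k
    rw [h, map_zero]
  · rintro rfl
    exact map_zero _

/-- restriction along a homomorphism -/
def comp {K' : Type*} [Group K'] (j : K' →* K) : SData F V K' where
  B := D.B
  alt := D.alt
  ρ := D.ρ.comp j
  inv k v w := D.inv (j k) v w

end SData

/-- the group `(V × F) ⋊ K` -/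
@[ext] structure WG (D : SData F V K) where
  v : V
  a : F
  k : K

namespace WG

variable {D : SData F V K}

instance : Mul (WG D) :=
  ⟨fun x y => ⟨x.v + D.ρ x.k y.v, x.a + y.a + D.B x.v (D.ρ x.k y.v), x.k * y.k⟩⟩
instance : One (WG D) := ⟨⟨0, 0, 1⟩⟩
instance : Inv (WG D) := ⟨fun x => ⟨-(D.ρ x.k⁻¹ x.v), -x.a, x.k⁻¹⟩⟩

@[simp] theorem mul_v (x y : WG D) : (x * y).v = x.v + D.ρ x.k y.v := rfl
@[simp] theorem mul_a (x y : WG D) : (x * y).a = x.a + y.a + D.B x.v (D.ρ x.k y.v) := rfl
@[simp] theorem mul_k (x y : WG D) : (x * y).k = x.k * y.k := rfl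
@[simp] theorem one_v : (1 : WG D).v = 0 := rfl
@[simp] theorem one_a : (1 : WG D).a = 0 := rfl
@[simp] theorem one_k : (1 : WG D).k = 1 := rfl
@[simp] theorem inv_v (x : WG D) : (x⁻¹).v = -(D.ρ x.k⁻¹ x.v) := rfl
@[simp] theorem inv_a (x : WG D) : (x⁻¹).a = -x.a := rfl
@[simp] theorem inv_k (x : WG D) : (x⁻¹).k = x.k⁻¹ := rfl

instance : Group (WG D) :=
  Group.ofLeftAxioms
    (by
      intro x y z
      ext
      · simp only [mul_v, mul_k, map_mul, Module.End.mul_apply, map_add, add_assoc]
      · simp only [mul_v, mul_a, mul_k, map_mul, Module.End.mul_apply, map_add,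
          LinearMap.add_apply, D.inv]
        ring
      · simp only [mul_k, mul_assoc])
    (by
      intro x
      ext
      · simp
      · simp
      · simp)
    (by
      intro x
      ext
      · simp
      · simp [D.alt]
      · simp)

/-- the projection onto `K` -/
def proj (D : SData F V K) : WG D →* K where
  toFun x := x.k
  map_one' := rfl
  map_mul' _ _ := rfl

@[simp] theorem proj_apply (x : WG D) : proj D x = x.k := rfl

theorem proj_surjective : Function.Surjective (proj D) := fun k => ⟨⟨0, 0, k⟩, rfl⟩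

/-- the complement `K` -/
def inr (D : SData F V K) : K →* WG D where
  toFun k := ⟨0, 0, k⟩
  map_one' := rfl
  map_mul' k k' := by
    ext <;> simp

@[simp] theorem inr_apply (k : K) : inr D k = ⟨0, 0, k⟩ := rfl

/-- the preimage of a subgroup of `K` -/
def pre (D : SData F V K) (R : Subgroup K) : Subgroup (WG D) := R.comap (proj D)

theorem mem_pre {R : Subgroup K} {x : WG D} : x ∈ pre D R ↔ x.k ∈ R := Iff.rfl

instance (R : Subgroup K) [R.Normal] : (pre D R).Normal := by
  unfold pre
  infer_instance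

/-- the preimage of a subgroup is a group of the same kind -/
def preEquiv (D : SData F V K) (R : Subgroup K) : pre D R ≃* WG (D.comp R.subtype) where
  toFun x := ⟨x.1.v, x.1.a, ⟨x.1.k, x.2⟩⟩
  invFun y := ⟨⟨y.v, y.a, y.k.1⟩, y.k.2⟩
  left_inv _ := rfl
  right_inv _ := rfl
  map_mul' _ _ := rfl

/-- the underlying set -/
def equivProd (D : SData F V K) : WG D ≃ V × F × K where
  toFun x := (x.v, x.a, x.k)
  invFun y := ⟨y.1, y.2.1, y.2.2⟩
  left_inv _ := rfl
  right_inv _ := rfl

instance [Finite V] [Finite F] [Finite K] : Finite (WG D) := Finite.of_equiv _ (equivProd D).symm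

noncomputable instance [Fintype V] [Fintype F] [Fintype K] : Fintype (WG D) :=
  Fintype.ofEquiv _ (equivProd D).symm

theorem sum_eq [Fintype V] [Fintype F] [Fintype K] {M : Type*} [AddCommMonoid M] (g : WG D → M) :
    ∑ x, g x = ∑ v, ∑ a, ∑ k, g ⟨v, a, k⟩ := by
  rw [← (equivProd D).symm.sum_comp, Fintype.sum_prod_type]
  apply Finset.sum_congr rfl
  intro v _
  rw [Fintype.sum_prod_type]
  rfl

theorem card_eq [Finite V] [Finite F] [Finite K] :
    Nat.card (WG D) = Nat.card V * (Nat.card F * Nat.card K) := by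
  rw [Nat.card_congr (equivProd D), Nat.card_prod, Nat.card_prod]

/-- the Heisenberg group as a set -/
def botEquiv (D : SData F V K) : pre D ⊥ ≃ V × F where
  toFun x := (x.1.v, x.1.a)
  invFun y := ⟨⟨y.1, y.2, 1⟩, Subgroup.mem_bot.2 rfl⟩
  left_inv x := by
    apply Subtype.ext
    have h : x.1.k = 1 := Subgroup.mem_bot.1 x.2
    ext
    · rfl
    · rfl
    · exact h.symm
  right_inv _ := rfl

theorem sum_bot [Fintype V] [Fintype F] [Fintype (pre D ⊥)] {M : Type*} [AddCommMonoid M]
    (g : pre D ⊥ → M) :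
    ∑ x, g x = ∑ v, ∑ a, g ⟨⟨v, a, 1⟩, Subgroup.mem_bot.2 rfl⟩ := by
  rw [← (botEquiv D).symm.sum_comp, Fintype.sum_prod_type]
  rfl

theorem card_bot [Finite V] [Finite F] : Nat.card (pre D ⊥) = Nat.card V * Nat.card F := by
  rw [Nat.card_congr (botEquiv D), Nat.card_prod]

theorem index_pre (R : Subgroup K) : (pre D R).index = R.index :=
  Subgroup.index_comap_of_surjective R proj_surjective

theorem relIndex_bot_pre (R : Subgroup K) : (pre D ⊥).relIndex (pre D R) = Nat.card R := by
  unfold pre
  rw [Subgroup.relIndex_comap, Subgroup.map_comap_eq_self_of_surjective proj_surjective,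
    Subgroup.relIndex_bot_left]

theorem pre_mono {R R' : Subgroup K} (h : R ≤ R') : pre D R ≤ pre D R' := Subgroup.comap_mono h

/-- conjugation of an element of the Heisenberg group -/
theorem conj_bot (g : WG D) (v : V) (a : F) :
    g * ⟨v, a, 1⟩ * g⁻¹ = ⟨D.ρ g.k v, a + 2 * D.B g.v (D.ρ g.k v), 1⟩ := by
  ext
  · simp [D.ρ_apply_inv]
  · simp only [mul_a, mul_v, mul_k, inv_a, inv_v, mul_one, map_neg, D.ρ_apply_inv, map_add,
      LinearMap.add_apply, D.alt]
    rw [D.skew (D.ρ g.k v) g.v]
    ring
  · simp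

/-- the central elements -/
theorem central (c : F) : (⟨0, c, 1⟩ : WG D) ∈ Subgroup.center (WG D) := by
  rw [Subgroup.mem_center_iff]
  intro g
  ext
  · simp
  · simp [add_comm]
  · simp

end WG

end Cfsg.Agent.Lib.Helper39.Weil
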