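import Cfsg.Agent.Lib.Helper39.Weil.Group

/-!
# Invariant Lagrangian subspaces for `p`-groups of isometries
-/

set_option autoImplicit false
set_option linter.unusedSectionVars false

namespace Cfsg.Agent.Lib.Helper39.Weil

open Module

/-- a `p`-group acting on an elementary abelian `p`-group fixes a nonzero element of every nonzero
invariant quotient -/
theorem exists_fixed_mod {p : ℕ} [Fact p.Prime] {K : Type*} [Group K] (hK : IsPGroup p K)
    {W : Type*} [AddCommGroup W] [Finite W] [DistribMulAction K W] (hW : ∀ x : W, p • x = 0)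
    (L : AddSubgroup W) (hL : ∀ (k : K), ∀ x ∈ L, k • x ∈ L) (hne : L ≠ ⊤) :
    ∃ x, x ∉ L ∧ ∀ k : K, k • x - x ∈ L := by
  have hL' : ∀ k : K, L ≤ AddSubgroup.comap (DistribSMul.toAddMonoidHom W k) L :=
    fun k x hx => AddSubgroup.mem_comap.2 (hL k x hx)
  let _ : MulAction K (W ⧸ L) :=
    { smul := fun k => QuotientAddGroup.map L L (DistribSMul.toAddMonoidHom W k) (hL' k)
      one_smul := by
        intro y
        induction y using QuotientAddGroup.induction_on with
        | H x =>
          change QuotientAddGroup.map L L _ (hL' 1) (x : W ⧸ L) = _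
          rw [QuotientAddGroup.map_mk]
          simp
      mul_smul := by
        intro k k' y
        induction y using QuotientAddGroup.induction_on with
        | H x =>
          change QuotientAddGroup.map L L _ (hL' (k * k')) (x : W ⧸ L) =
            QuotientAddGroup.map L L _ (hL' k) (QuotientAddGroup.map L L _ (hL' k') (x : W ⧸ L))
          rw [QuotientAddGroup.map_mk, QuotientAddGroup.map_mk, QuotientAddGroup.map_mk]
          simp [mul_smul] }
  have hsm : ∀ (k : K) (x : W), k • (x : W ⧸ L) = ((k • x : W) : W ⧸ L) := fun k x => rfl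
  have hp : IsPGroup p (Multiplicative (W ⧸ L)) := by
    intro g
    refine ⟨1, ?_⟩
    rw [pow_one]
    induction g using Multiplicative.rec with
    | _ y =>
      induction y using QuotientAddGroup.induction_on with
      | H x =>
        rw [← ofAdd_nsmul, ← QuotientAddGroup.mk_nsmul, hW]
        rfl
  obtain ⟨m, hm⟩ := IsPGroup.iff_card.1 hp
  rw [Nat.card_congr Multiplicative.toAdd] at hm
  have hdvd : p ∣ Nat.card (W ⧸ L) := by
    rw [hm]
    apply dvd_pow_self
    rintro rfl
    rw [pow_zero] at hm
    apply hne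
    have : L.index = 1 := hm
    exact AddSubgroup.index_eq_one.1 this
  have h0 : (0 : W ⧸ L) ∈ MulAction.fixedPoints K (W ⧸ L) := by
    intro k
    have := hsm k 0
    rw [smul_zero] at this
    exact this
  obtain ⟨b, hb, hb0⟩ := hK.exists_fixed_point_of_prime_dvd_card_of_fixed_point (W ⧸ L) hdvd h0
  induction b using QuotientAddGroup.induction_on with
  | H x =>
    refine ⟨x, ?_, ?_⟩
    · intro hx
      apply hb0
      exact ((QuotientAddGroup.eq_zero_iff x).2 hx).symm
    · intro k
      have h1 := hb k
      rw [hsm] at h1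
      have h2 := QuotientAddGroup.eq.1 h1.symm
      rwa [neg_add_eq_sub] at h2

variable {F V K : Type*} [Field F] [AddCommGroup V] [Module F V] [Group K]

/-- a Lagrangian subspace invariant under the group -/
structure IsLagr (D : SData F V K) (L : Submodule F V) : Prop where
  iso : ∀ x ∈ L, ∀ y ∈ L, D.B x y = 0
  stable : ∀ k, ∀ x ∈ L, D.ρ k x ∈ L
  max : ∀ x, (∀ y ∈ L, D.B x y = 0) → x ∈ L

theorem exists_lagr [Finite V] (D : SData F V K) (p : ℕ) [Fact p.Prime] [CharP F p]
    (hK : IsPGroup p K) : ∃ L, IsLagr D L := by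
  have : FiniteDimensional F V := Module.Finite.of_finite
  set 𝒮 : Set (Submodule F V) := {L | (∀ x ∈ L, ∀ y ∈ L, D.B x y = 0) ∧
    ∀ k, ∀ x ∈ L, D.ρ k x ∈ L} with h𝒮
  have hne : 𝒮.Nonempty := ⟨⊥, by
    constructor
    · intro x hx y _
      rw [(Submodule.mem_bot F).1 hx]; simp
    · intro k x hx
      rw [(Submodule.mem_bot F).1 hx]; simp⟩
  obtain ⟨L, hL, hmax⟩ := (wellFounded_gt (α := Submodule F V)).has_min 𝒮 hne
  refine ⟨L, hL.1, hL.2, ?_⟩
  by_contra hcon
  push Not at hcon
  obtain ⟨x₀, hx₀, hx₀L⟩ := hcon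
  -- the orthogonal complement
  let M : Submodule F V :=
    { carrier := {x | ∀ y ∈ L, D.B x y = 0}
      add_mem' := by
        intro a b ha hb y hy
        rw [map_add, LinearMap.add_apply, ha y hy, hb y hy, add_zero]
      zero_mem' := by
        intro y _
        simp
      smul_mem' := by
        intro c a ha y hy
        rw [map_smul, LinearMap.smul_apply, ha y hy, smul_zero] }
  have hMmem : ∀ x, x ∈ M ↔ ∀ y ∈ L, D.B x y = 0 := fun x => Iff.rfl
  have hMst : ∀ k, ∀ x ∈ M, D.ρ k x ∈ M := by
    intro k x hx y hy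
    rw [← D.ρ_apply_inv k y, D.inv]
    exact hx _ (hL.2 _ _ hy)
  let _ : DistribMulAction K M :=
    { smul := fun k x => ⟨D.ρ k x.1, hMst k x.1 x.2⟩
      one_smul := by
        intro x
        apply Subtype.ext
        change D.ρ 1 x.1 = x.1
        rw [map_one, Module.End.one_apply]
      mul_smul := by
        intro k k' x
        apply Subtype.ext
        change D.ρ (k * k') x.1 = D.ρ k (D.ρ k' x.1)
        rw [map_mul, Module.End.mul_apply]
      smul_zero := by
        intro k
        apply Subtype.ext
        change D.ρ k 0 = 0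
        exact map_zero _
      smul_add := by
        intro k x y
        apply Subtype.ext
        change D.ρ k (x.1 + y.1) = D.ρ k x.1 + D.ρ k y.1
        exact map_add _ _ _ }
  have hsm : ∀ (k : K) (x : M), ((k • x : M) : V) = D.ρ k x.1 := fun k x => rfl
  obtain ⟨x, hxL, hxk⟩ := exists_fixed_mod (p := p) hK (W := M) (by
      intro x
      apply Subtype.ext
      rw [Submodule.coe_smul_of_tower, ← Nat.cast_smul_eq_nsmul F, CharP.cast_eq_zero, zero_smul]
      rfl) (L.comap M.subtype).toAddSubgroup (by
      intro k x hx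
      exact hL.2 k x.1 hx) (by
      intro h
      apply hx₀L
      have : (⟨x₀, hx₀⟩ : M) ∈ (L.comap M.subtype).toAddSubgroup := by rw [h]; trivial
      exact this)
  have hxL' : x.1 ∉ L := hxL
  have hxk' : ∀ k, D.ρ k x.1 - x.1 ∈ L := hxk
  have hxM : ∀ y ∈ L, D.B x.1 y = 0 := x.2
  apply hmax (L ⊔ Submodule.span F {x.1})
  · constructor
    · intro u hu w hw
      obtain ⟨l, hl, z, hz, rfl⟩ := Submodule.mem_sup.1 hu
      obtain ⟨l', hl', z', hz', rfl⟩ := Submodule.mem_sup.1 hw
      obtain ⟨c, rfl⟩ := Submodule.mem_span_singleton.1 hz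
      obtain ⟨c', rfl⟩ := Submodule.mem_span_singleton.1 hz'
      simp only [map_add, LinearMap.add_apply, map_smul, LinearMap.smul_apply, hL.1 l hl l' hl',
        hxM l' hl', D.alt, D.skew l x.1, hxM l hl]
      simp
    · intro k u hu
      obtain ⟨l, hl, z, hz, rfl⟩ := Submodule.mem_sup.1 hu
      obtain ⟨c, rfl⟩ := Submodule.mem_span_singleton.1 hz
      rw [map_add, map_smul]
      have e : D.ρ k l + c • D.ρ k x.1 = (D.ρ k l + c • (D.ρ k x.1 - x.1)) + c • x.1 := by
        rw [smul_sub]; abel
      rw [e]
      exact Submodule.add_mem_sup (L.add_mem (hL.2 k l hl) (L.smul_mem c (hxk' k)))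
        (Submodule.smul_mem _ c (Submodule.mem_span_singleton_self _))
  · apply lt_of_le_of_ne le_sup_left
    intro h
    apply hxL'
    rw [h]
    exact Submodule.mem_sup_right (Submodule.mem_span_singleton_self _)

theorem IsLagr.card_sq [Finite F] [Finite V] {D : SData F V K} {L : Submodule F V}
    (hL : IsLagr D L) (hnd : ∀ v, (∀ w, D.B v w = 0) → v = 0) :
    Nat.card L * Nat.card L = Nat.card V := by
  have : FiniteDimensional F V := Module.Finite.of_finite
  have h1 : LinearMap.BilinForm.orthogonal D.B L = L := by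
    ext x
    rw [LinearMap.BilinForm.mem_orthogonal_iff]
    constructor
    · intro h
      apply hL.max
      intro y hy
      rw [D.skew]
      have := h y hy
      rw [this, neg_zero]
    · intro hx y hy
      exact hL.iso y hy x hx
  have h2 := LinearMap.BilinForm.finrank_add_finrank_orthogonal' (B := D.B) L
  have h3 : LinearMap.ker D.B = ⊥ := by
    rw [LinearMap.ker_eq_bot']
    intro v hv
    apply hnd
    intro w
    rw [hv]; rfl
  rw [h1, h3, inf_bot_eq, finrank_bot, add_zero] at h2
  rw [Module.natCard_eq_pow_finrank (K := F) (V := V), Module.natCard_eq_pow_finrank (K := F) (V := L),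
    ← pow_add, h2]

end Cfsg.Agent.Lib.Helper39.Weil
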