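import Mathlib

/-!
# Orbits of the general linear group on quadratic forms in characteristic two
-/

set_option autoImplicit false
set_option linter.unusedSectionVars false

namespace Cfsg.Agent.Lib.Helper39.Weil

open QuadraticMap Module

section transport

variable {F : Type*} [Field F] {V : Type*} [AddCommGroup V] [Module F V]

/-- splitting off a dual pair -/
def splitEquiv (x₁ x₂ : V) (φ₁ φ₂ : V →ₗ[F] F) (h11 : φ₁ x₁ = 1) (h12 : φ₁ x₂ = 0)
    (h21 : φ₂ x₁ = 0) (h22 : φ₂ x₂ = 1) :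
    V ≃ₗ[F] (F × F) × ↥(LinearMap.ker φ₁ ⊓ LinearMap.ker φ₂) where
  toFun v := ((φ₁ v, φ₂ v), ⟨v - φ₁ v • x₁ - φ₂ v • x₂, by
    simp [Submodule.mem_inf, LinearMap.mem_ker, h11, h12, h21, h22]⟩)
  map_add' := by
    intro v w
    refine Prod.ext (Prod.ext (map_add _ _ _) (map_add _ _ _)) (Subtype.ext ?_)
    simp only [map_add, add_smul, Prod.snd_add, Submodule.coe_add]
    abel
  map_smul' := by
    intro c v
    refine Prod.ext (Prod.ext (map_smul _ _ _) (map_smul _ _ _)) (Subtype.ext ?_)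
    simp only [map_smul, smul_eq_mul, RingHom.id_apply, Prod.smul_snd, Submodule.coe_smul,
      smul_sub, mul_smul]
  invFun p := p.1.1 • x₁ + p.1.2 • x₂ + p.2.1
  left_inv := by
    intro v
    simp only
    abel
  right_inv := by
    rintro ⟨⟨a, b⟩, ⟨w, hw⟩⟩
    rw [Submodule.mem_inf, LinearMap.mem_ker, LinearMap.mem_ker] at hw
    refine Prod.ext (Prod.ext ?_ ?_) (Subtype.ext ?_)
    · simp [h11, h12, hw.1]
    · simp [h21, h22, hw.2]
    · simp only [map_add, map_smul, h11, h12, h21, h22, hw.1, hw.2, smul_eq_mul, mul_one, mul_zero,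
        add_zero, zero_add]
      abel

theorem pair_transport [FiniteDimensional F V] (x₁ x₂ y₁ y₂ : V) (φ₁ φ₂ ψ₁ ψ₂ : V →ₗ[F] F)
    (h11 : φ₁ x₁ = 1) (h12 : φ₁ x₂ = 0) (h21 : φ₂ x₁ = 0) (h22 : φ₂ x₂ = 1)
    (k11 : ψ₁ y₁ = 1) (k12 : ψ₁ y₂ = 0) (k21 : ψ₂ y₁ = 0) (k22 : ψ₂ y₂ = 1) :
    ∃ g : V ≃ₗ[F] V, g x₁ = y₁ ∧ g x₂ = y₂ ∧ (∀ v, ψ₁ (g v) = φ₁ v) ∧ ∀ v, ψ₂ (g v) = φ₂ v := by
  set e₁ := splitEquiv x₁ x₂ φ₁ φ₂ h11 h12 h21 h22 with he₁
  set e₂ := splitEquiv y₁ y₂ ψ₁ ψ₂ k11 k12 k21 k22 with he₂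
  have f1 := e₁.finrank_eq
  have f2 := e₂.finrank_eq
  rw [Module.finrank_prod] at f1 f2
  have f3 : finrank F ↥(LinearMap.ker φ₁ ⊓ LinearMap.ker φ₂)
      = finrank F ↥(LinearMap.ker ψ₁ ⊓ LinearMap.ker ψ₂) := by omega
  let k := LinearEquiv.ofFinrankEq _ _ f3
  let g : V ≃ₗ[F] V := e₁.trans ((LinearEquiv.prodCongr (LinearEquiv.refl F (F × F)) k).trans e₂.symm)
  have hg : ∀ v, g v = φ₁ v • y₁ + φ₂ v • y₂ + (k (e₁ v).2).1 := fun v => rfl
  have hk : ∀ w : ↥(LinearMap.ker ψ₁ ⊓ LinearMap.ker ψ₂), ψ₁ w.1 = 0 ∧ ψ₂ w.1 = 0 := by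
    intro w
    have := w.2
    rwa [Submodule.mem_inf, LinearMap.mem_ker, LinearMap.mem_ker] at this
  refine ⟨g, ?_, ?_, ?_, ?_⟩
  · have : (e₁ x₁).2 = 0 := by
      apply Subtype.ext
      change x₁ - φ₁ x₁ • x₁ - φ₂ x₁ • x₂ = 0
      simp [h11, h21]
    rw [hg, this, map_zero, h11, h21]
    simp
  · have : (e₁ x₂).2 = 0 := by
      apply Subtype.ext
      change x₂ - φ₁ x₂ • x₁ - φ₂ x₂ • x₂ = 0
      simp [h12, h22]
    rw [hg, this, map_zero, h12, h22]
    simp
  · intro v
    rw [hg]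
    simp [k11, k12, (hk _).1]
  · intro v
    rw [hg]
    simp [k21, k22, (hk _).2]

end transport

section quad

variable {F : Type*} [Field F] [Fintype F] [CharP F 2] {V : Type*} [AddCommGroup V] [Module F V]

theorem polar_self_zero (Q : QuadraticForm F V) (x : V) : polar Q x x = 0 := by
  rw [QuadraticMap.polar_self]
  simp [CharTwo.two_eq_zero]

theorem qadd (Q : QuadraticForm F V) (x y : V) : Q (x + y) = Q x + Q y + polar Q x y :=
  QuadraticMap.map_add Q x y

theorem quad_pair (Q : QuadraticForm F V) (u v : V) (s t : F) :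
    Q (s • u + t • v) = Q u * s ^ 2 + s * t * polar Q u v + Q v * t ^ 2 := by
  rw [qadd, QuadraticMap.map_smul, QuadraticMap.map_smul, polar_smul_left,
    polar_smul_right]
  simp only [smul_eq_mul]
  ring

theorem exists_hyp_pair (Q : QuadraticForm F V) {w y : V} (hw : Q w = 0) (hy : polar Q w y ≠ 0) :
    ∃ v, Q v = 0 ∧ polar Q w v = 1 := by
  obtain ⟨y', h1⟩ : ∃ y', polar Q w y' = 1 :=
    ⟨(polar Q w y)⁻¹ • y, by rw [polar_smul_right, smul_eq_mul, inv_mul_cancel₀ hy]⟩
  refine ⟨y' + Q y' • w, ?_, ?_⟩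
  · rw [qadd, QuadraticMap.map_smul, hw, polar_smul_right, polar_comm, h1]
    simp only [smul_eq_mul, mul_zero, add_zero, mul_one]
    exact CharTwo.add_self_eq_zero _
  · rw [polar_add_right, h1, polar_smul_right, polar_self_zero]
    simp

theorem quad_dichotomy (Q : QuadraticForm F V) {u v : V} (huv : polar Q u v = 1) :
    (∃ u' v', Q u' = 0 ∧ Q v' = 0 ∧ polar Q u' v' = 1) ∨
    ((∀ x, Q x = Q u * (polar Q x v) ^ 2 + polar Q x v * polar Q x u + Q v * (polar Q x u) ^ 2) ∧
      ∀ s t : F, Q u * s ^ 2 + s * t + Q v * t ^ 2 = 0 → s = 0 ∧ t = 0) := by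
  by_cases h : ∃ w, Q w = 0 ∧ ∃ y, polar Q w y ≠ 0
  · left
    obtain ⟨w, hw, y, hy⟩ := h
    obtain ⟨v', hv', hwv⟩ := exists_hyp_pair Q hw hy
    exact ⟨w, v', hw, hv', hwv⟩
  · right
    push Not at h
    have hvu : polar Q v u = 1 := by rw [polar_comm, huv]
    have hu0 : Q u ≠ 0 := by
      intro h0
      have := h u h0 v
      rw [huv] at this
      exact one_ne_zero this
    constructor
    · intro x
      set s := polar Q x v with hs
      set t := polar Q x u with ht
      set z := x - s • u - t • v with hz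
      have hzu : polar Q z u = 0 := by
        rw [hz, polar_sub_left, polar_sub_left, polar_smul_left, polar_smul_left, polar_self_zero,
          hvu, ← ht]
        simp
      have hzv : polar Q z v = 0 := by
        rw [hz, polar_sub_left, polar_sub_left, polar_smul_left, polar_smul_left, polar_self_zero,
          huv, ← hs]
        simp
      have hQz : Q z = 0 := by
        by_contra hne
        obtain ⟨r, hr⟩ := FiniteField.isSquare_of_char_two (ringChar.eq F 2) (Q z / Q u)
        have h1 : Q (r • u + z) = 0 := by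
          rw [qadd, QuadraticMap.map_smul, polar_smul_left, polar_comm, hzu, ← hr]
          simp only [smul_eq_mul, mul_zero, add_zero]
          rw [div_mul_cancel₀ _ hu0]
          exact CharTwo.add_self_eq_zero _
        have h2 := h _ h1 v
        rw [polar_add_left, polar_smul_left, huv, hzv] at h2
        simp only [smul_eq_mul, mul_one, add_zero] at h2
        rw [h2] at hr
        simp only [mul_zero] at hr
        rcases div_eq_zero_iff.1 hr with h3 | h3
        · exact hne h3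
        · exact hu0 h3
      have hx : x = z + (s • u + t • v) := by
        rw [hz]
        abel
      conv_lhs => rw [hx]
      rw [qadd, hQz, quad_pair, huv, polar_add_right, polar_smul_right,
        polar_smul_right, hzu, hzv]
      simp
    · intro s t hst
      have h1 : Q (s • u + t • v) = 0 := by
        rw [quad_pair, huv, mul_one]
        exact hst
      have h2 := h _ h1 v
      have h3 := h _ h1 u
      rw [polar_add_left, polar_smul_left, polar_smul_left, huv, polar_self_zero] at h2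
      rw [polar_add_left, polar_smul_left, polar_smul_left, hvu, polar_self_zero] at h3
      simp only [smul_eq_mul, mul_one, mul_zero, add_zero, zero_add] at h2 h3
      exact ⟨h2, h3⟩

theorem polar_comp_equiv (Q : QuadraticForm F V) (g : V ≃ₗ[F] V) (x y : V) :
    polar (Q.comp g.toLinearMap) x y = polar Q (g x) (g y) := by
  unfold polar
  simp [QuadraticMap.comp_apply]

end quad

section hyp

variable {F : Type*} [Field F] [Fintype F] [DecidableEq F] [CharP F 2]

/-- the dot product functional -/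
def dotF {ι : Type*} [Fintype ι] (r : ι → F) : (ι → F) →ₗ[F] F where
  toFun x := r ⬝ᵥ x
  map_add' := dotProduct_add r
  map_smul' := fun c x => by simp [dotProduct_smul]

theorem dotF_apply {ι : Type*} [Fintype ι] (r x : ι → F) : dotF r x = r ⬝ᵥ x := rfl

variable {m : ℕ}

/-- the data used to separate the forms of an orbit -/
def qdata (Q : QuadraticForm F (Fin (m + 2) → F)) :
    F × F × (Fin (m + 2) → F) × (Fin (m + 2) → F) :=
  (Q (Pi.single 0 1), Q (Pi.single 1 1), fun j => polar Q (Pi.single 0 1) (Pi.single j 1),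
    fun j => polar Q (Pi.single 1 1) (Pi.single j 1))

theorem hyp_realize (Q : QuadraticForm F (Fin (m + 2) → F)) {u v : Fin (m + 2) → F}
    (hu : Q u = 0) (hv : Q v = 0) (huv : polar Q u v = 1) (c s t : F) (hs : s ≠ 0)
    (ρ₁ ρ₂ : Fin m → F) :
    ∃ g : (Fin (m + 2) → F) ≃ₗ[F] (Fin (m + 2) → F), qdata (Q.comp g.toLinearMap)
      = (c, c * t ^ 2 + s * t, Fin.cons 0 (Fin.cons s ρ₁), Fin.cons s (Fin.cons 0 ρ₂)) := by
  set r₁ : Fin (m + 2) → F := Fin.cons 0 (Fin.cons s ρ₁) with hr₁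
  set r₂ : Fin (m + 2) → F := Fin.cons s (Fin.cons 0 ρ₂) with hr₂
  have r10 : r₁ 0 = 0 := rfl
  have r11 : r₁ 1 = s := rfl
  have r20 : r₂ 0 = s := rfl
  have r21 : r₂ 1 = 0 := rfl
  obtain ⟨a₁, ha₁, ha₁u⟩ : ∃ a₁, Q a₁ = c ∧ polar Q a₁ u = 1 := by
    refine ⟨c • u + v, ?_, ?_⟩
    · rw [qadd, QuadraticMap.map_smul, hu, hv, polar_smul_left, huv]
      simp
    · rw [polar_add_left, polar_smul_left, polar_self_zero, polar_comm, huv]
      simp
  obtain ⟨a₂, ha₂, ha₁₂⟩ : ∃ a₂, Q a₂ = c * t ^ 2 + s * t ∧ polar Q a₁ a₂ = s := by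
    refine ⟨t • a₁ + s • u, ?_, ?_⟩
    · rw [qadd, QuadraticMap.map_smul, QuadraticMap.map_smul, hu, ha₁, polar_smul_left,
        polar_smul_right, ha₁u]
      simp only [smul_eq_mul]
      ring
    · rw [polar_add_right, polar_smul_right, polar_smul_right, polar_self_zero, ha₁u]
      simp
  have ha₂₁ : polar Q a₂ a₁ = s := by rw [polar_comm, ha₁₂]
  obtain ⟨g, hg1, hg2, hg3, hg4⟩ := pair_transport (F := F) (Pi.single 0 1 : Fin (m + 2) → F)
    (Pi.single 1 1) a₁ a₂ (s⁻¹ • dotF r₂) (s⁻¹ • dotF r₁) (s⁻¹ • Q.polarBilin a₂)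
    (s⁻¹ • Q.polarBilin a₁)
    (by simp [dotF_apply, r20, hs]) (by simp [dotF_apply, r21]) (by simp [dotF_apply, r10])
    (by simp [dotF_apply, r11, hs]) (by simp [ha₂₁, hs]) (by simp [CharTwo.two_eq_zero])
    (by simp [CharTwo.two_eq_zero]) (by simp [ha₁₂, hs])
  have hg3' : ∀ x, polar Q a₂ (g x) = r₂ ⬝ᵥ x := by
    intro x
    have := hg3 x
    simp only [LinearMap.smul_apply, polarBilin_apply_apply, dotF_apply, smul_eq_mul] at this
    exact mul_left_cancel₀ (inv_ne_zero hs) this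
  have hg4' : ∀ x, polar Q a₁ (g x) = r₁ ⬝ᵥ x := by
    intro x
    have := hg4 x
    simp only [LinearMap.smul_apply, polarBilin_apply_apply, dotF_apply, smul_eq_mul] at this
    exact mul_left_cancel₀ (inv_ne_zero hs) this
  refine ⟨g, ?_⟩
  unfold qdata
  simp only [polar_comp_equiv, QuadraticMap.comp_apply, LinearEquiv.coe_coe, hg1, hg2, ha₁, ha₂,
    hg3', hg4', dotProduct_single_one]

/-- the parametrisation of the data -/
def qparam (p : F × F × F × (Fin m → F) × (Fin m → F)) :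
    F × F × (Fin (m + 2) → F) × (Fin (m + 2) → F) :=
  (p.1, p.1 * p.2.2.1 ^ 2 + p.2.1 * p.2.2.1, Fin.cons 0 (Fin.cons p.2.1 p.2.2.2.1),
    Fin.cons p.2.1 (Fin.cons 0 p.2.2.2.2))

theorem qparam_eq {p p' : F × F × F × (Fin m → F) × (Fin m → F)} (h : qparam p' = qparam p) :
    p'.1 = p.1 ∧ p'.2.1 = p.2.1 ∧ p'.2.2.2 = p.2.2.2 ∧
      p.1 * p'.2.2.1 ^ 2 + p.2.1 * p'.2.2.1 = p.1 * p.2.2.1 ^ 2 + p.2.1 * p.2.2.1 := by
  obtain ⟨c, s, t, ρ₁, ρ₂⟩ := p
  obtain ⟨c', s', t', ρ₁', ρ₂'⟩ := p'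
  simp only [qparam, Prod.mk.injEq, Fin.cons_inj, true_and] at h
  obtain ⟨rfl, h2, ⟨rfl, rfl⟩, -, rfl⟩ := h
  exact ⟨rfl, rfl, rfl, h2⟩

theorem hyp_count (𝒬 : Finset (QuadraticForm F (Fin (m + 2) → F)))
    (hcl : ∀ g : (Fin (m + 2) → F) ≃ₗ[F] (Fin (m + 2) → F), ∀ Q ∈ 𝒬, Q.comp g.toLinearMap ∈ 𝒬)
    {Q : QuadraticForm F (Fin (m + 2) → F)} (hQ : Q ∈ 𝒬) {u v : Fin (m + 2) → F}
    (hu : Q u = 0) (hv : Q v = 0) (huv : polar Q u v = 1) :
    (Fintype.card F - 1) * (Fintype.card F + 1) * Fintype.card F ^ (2 * m + 1) ≤ 2 * 𝒬.card := by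
  classical
  set q := Fintype.card F with hq
  set P₁ : Finset (F × F × F × (Fin m → F) × (Fin m → F)) :=
    (Finset.univ.erase 0) ×ˢ (Finset.univ.erase 0) ×ˢ Finset.univ with hP₁
  set P₀ : Finset (F × F × F × (Fin m → F) × (Fin m → F)) :=
    {0} ×ˢ (Finset.univ.erase 0) ×ˢ Finset.univ with hP₀
  have hc1 : P₁.card = (q - 1) * ((q - 1) * (q * (q ^ m * q ^ m))) := by
    rw [hP₁, Finset.card_product, Finset.card_product, Finset.card_erase_of_mem (Finset.mem_univ _),
      Finset.card_univ, Finset.card_univ, Fintype.card_prod, Fintype.card_prod, Fintype.card_fun,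
      Fintype.card_fin]
  have hc0 : P₀.card = (q - 1) * (q * (q ^ m * q ^ m)) := by
    rw [hP₀, Finset.card_product, Finset.card_product, Finset.card_erase_of_mem (Finset.mem_univ _),
      Finset.card_univ, Finset.card_univ, Fintype.card_prod, Fintype.card_prod, Fintype.card_fun,
      Fintype.card_fin, Finset.card_singleton, one_mul]
  have hsub : ∀ p : F × F × F × (Fin m → F) × (Fin m → F), p.2.1 ≠ 0 →
      qparam p ∈ 𝒬.image qdata := by
    rintro ⟨c, s, t, ρ₁, ρ₂⟩ hs
    obtain ⟨g, hg⟩ := hyp_realize Q hu hv huv c s t hs ρ₁ ρ₂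
    exact Finset.mem_image.2 ⟨_, hcl g Q hQ, hg⟩
  have h1 : P₁.card ≤ 2 * (P₁.image qparam).card := by
    apply Finset.card_le_mul_card_image
    intro b hb
    obtain ⟨p, hp, rfl⟩ := Finset.mem_image.1 hb
    have hc : p.1 ≠ 0 := by
      rw [hP₁, Finset.mem_product] at hp
      exact Finset.ne_of_mem_erase hp.1
    calc _ ≤ ({p, (p.1, p.2.1, p.2.2.1 + p.2.1 / p.1, p.2.2.2)} :
          Finset (F × F × F × (Fin m → F) × (Fin m → F))).card := by
          apply Finset.card_le_card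
          intro p' hp'
          rw [Finset.mem_filter] at hp'
          obtain ⟨e1, e2, e3, e4⟩ := qparam_eq hp'.2
          have e5 : (p'.2.2.1 - p.2.2.1) * (p.1 * (p'.2.2.1 + p.2.2.1) + p.2.1) = 0 := by
            linear_combination e4
          rw [Finset.mem_insert, Finset.mem_singleton]
          rcases mul_eq_zero.1 e5 with e6 | e6
          · left
            exact Prod.ext e1 (Prod.ext e2 (Prod.ext (sub_eq_zero.1 e6) e3))
          · right
            refine Prod.ext e1 (Prod.ext e2 (Prod.ext ?_ e3))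
            simp only
            have e7 : p'.2.2.1 = - p.2.2.1 - p.2.1 / p.1 := by
              field_simp
              linear_combination e6
            rw [e7, CharTwo.neg_eq, CharTwo.sub_eq_add]
      _ ≤ 2 := Finset.card_le_two
  have h0 : (P₀.image qparam).card = P₀.card := by
    apply Finset.card_image_of_injOn
    intro p hp p' hp' hpp
    rw [Finset.mem_coe, hP₀, Finset.mem_product, Finset.mem_product, Finset.mem_singleton] at hp hp'
    obtain ⟨e1, e2, e3, e4⟩ := qparam_eq hpp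
    rw [hp'.1] at e4
    simp only [zero_mul, zero_add] at e4
    exact Prod.ext e1 (Prod.ext e2 (Prod.ext
      (mul_left_cancel₀ (Finset.ne_of_mem_erase hp'.2.1) e4) e3))
  have hdisj : Disjoint (P₁.image qparam) (P₀.image qparam) := by
    rw [Finset.disjoint_left]
    intro b hb hb'
    obtain ⟨p, hp, rfl⟩ := Finset.mem_image.1 hb
    obtain ⟨p', hp', hpp⟩ := Finset.mem_image.1 hb'
    rw [hP₁, Finset.mem_product] at hp
    rw [hP₀, Finset.mem_product, Finset.mem_singleton] at hp'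
    apply Finset.ne_of_mem_erase hp.1
    rw [← (qparam_eq hpp).1, hp'.1]
  have hle : (P₁.image qparam).card + (P₀.image qparam).card ≤ 𝒬.card := by
    rw [← Finset.card_union_of_disjoint hdisj]
    refine (Finset.card_le_card ?_).trans (Finset.card_image_le (s := 𝒬) (f := qdata))
    intro b hb
    rcases Finset.mem_union.1 hb with hb | hb
    · obtain ⟨p, hp, rfl⟩ := Finset.mem_image.1 hb
      rw [hP₁, Finset.mem_product, Finset.mem_product] at hp
      exact hsub p (Finset.ne_of_mem_erase hp.2.1)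
    · obtain ⟨p, hp, rfl⟩ := Finset.mem_image.1 hb
      rw [hP₀, Finset.mem_product, Finset.mem_product] at hp
      exact hsub p (Finset.ne_of_mem_erase hp.2.1)
  have hq1 : 1 ≤ q := Fintype.card_pos
  obtain ⟨r, hr⟩ : ∃ r, q = r + 1 := ⟨q - 1, by omega⟩
  have e : (q - 1) * (q + 1) * q ^ (2 * m + 1) = P₁.card + 2 * P₀.card := by
    rw [hc1, hc0, hr]
    simp only [Nat.add_sub_cancel]
    ring
  rw [e]
  omega

end hyp

section aniso

variable {F : Type*} [Field F] [Fintype F] [DecidableEq F] [CharP F 2]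

/-- a binary quadratic form -/
def nrm (a b : F) (p : F × F) : F := a * p.1 ^ 2 + p.1 * p.2 + b * p.2 ^ 2

theorem nrm_add (a b : F) (p r : F × F) :
    nrm a b (p + r) = nrm a b p + nrm a b r + (p.1 * r.2 + p.2 * r.1) := by
  unfold nrm
  simp only [Prod.fst_add, Prod.snd_add]
  have h2 : (2 : F) = 0 := CharTwo.two_eq_zero
  linear_combination (a * p.1 * r.1 + b * p.2 * r.2) * h2

theorem nrm_smul (a b k : F) (p : F × F) : nrm a b (k • p) = k ^ 2 * nrm a b p := by
  unfold nrm
  simp only [Prod.smul_fst, Prod.smul_snd, smul_eq_mul]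
  ring

theorem sq_inj_two {x y : F} (h : x ^ 2 = y ^ 2) : x = y := by
  have h1 : (x + y) ^ 2 = 0 := by
    rw [CharTwo.add_sq, h]
    exact CharTwo.add_self_eq_zero _
  have h2 : x + y = 0 := by simpa using h1
  exact CharTwo.add_eq_zero.1 h2

theorem card_nrm_eq (a b : F) (hN : ∀ s t : F, a * s ^ 2 + s * t + b * t ^ 2 = 0 → s = 0 ∧ t = 0)
    (c : F) (hc : c ≠ 0) :
    (Finset.univ.filter fun p : F × F => nrm a b p = c).card ≤ Fintype.card F + 1 := by
  rw [← Fintype.card_option, ← Finset.card_univ]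
  apply Finset.card_le_card_of_injOn (fun p => if p.2 = 0 then none else some (p.1 / p.2))
  · intro p _
    exact Finset.mem_coe.2 (Finset.mem_univ _)
  · rintro ⟨p1, p2⟩ hp ⟨r1, r2⟩ hr h
    rw [Finset.mem_coe, Finset.mem_filter] at hp hr
    have hp' := hp.2
    have hr' := hr.2
    unfold nrm at hp' hr'
    simp only at h hp' hr'
    by_cases h1 : p2 = 0
    · by_cases h2 : r2 = 0
      · subst h1 h2
        have ha : a ≠ 0 := by
          rintro rfl
          apply hc
          rw [← hp']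
          ring
        have : p1 ^ 2 = r1 ^ 2 := by
          apply mul_left_cancel₀ ha
          linear_combination hp' - hr'
        rw [sq_inj_two this]
      · simp [h1, h2] at h
    · by_cases h2 : r2 = 0
      · simp [h1, h2] at h
      · simp only [h1, h2, if_false, Option.some.injEq] at h
        set k := p1 / p2 with hk
        have e1 : p1 = k * p2 := by rw [hk]; field_simp
        have e2 : r1 = k * r2 := by rw [h]; field_simp
        have e3 : p2 ^ 2 * (a * k ^ 2 + k * 1 + b * 1 ^ 2) = c := by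
          rw [← hp', e1]; ring
        have e4 : r2 ^ 2 * (a * k ^ 2 + k * 1 + b * 1 ^ 2) = c := by
          rw [← hr', e2]; ring
        have e5 : a * k ^ 2 + k * 1 + b * 1 ^ 2 ≠ 0 := by
          intro h0
          exact one_ne_zero (hN k 1 h0).2
        have e6 : p2 ^ 2 = r2 ^ 2 := mul_right_cancel₀ e5 (e3.trans e4.symm)
        have e7 := sq_inj_two e6
        rw [e1, e2, e7]

theorem card_second (a b : F) (ha : a ≠ 0) (p : F × F) (hp : nrm a b p = a) :
    (Finset.univ.filter fun r : F × F => nrm a b r = b ∧ nrm a b (p + r) = a + b + 1).card ≤ 2 := by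
  by_cases hne : (Finset.univ.filter fun r : F × F =>
      nrm a b r = b ∧ nrm a b (p + r) = a + b + 1).Nonempty
  · obtain ⟨r₀, hr₀⟩ := hne
    rw [Finset.mem_filter] at hr₀
    have h0 : p.1 * r₀.2 + p.2 * r₀.1 = 1 := by
      have := hr₀.2.2
      rw [nrm_add, hp, hr₀.2.1] at this
      linear_combination this
    have hp0 : p.1 ≠ 0 ∨ p.2 ≠ 0 := by
      by_contra hcon
      push Not at hcon
      rw [hcon.1, hcon.2] at h0
      simp at h0
    calc _ ≤ ({r₀, r₀ + a⁻¹ • p} : Finset (F × F)).card := by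
          apply Finset.card_le_card
          intro r hr
          rw [Finset.mem_filter] at hr
          have h1 : p.1 * r.2 + p.2 * r.1 = 1 := by
            have := hr.2.2
            rw [nrm_add, hp, hr.2.1] at this
            linear_combination this
          obtain ⟨k, hk⟩ : ∃ k : F, r = r₀ + k • p := by
            rcases hp0 with hp1 | hp2
            · refine ⟨(r.1 - r₀.1) / p.1, Prod.ext ?_ ?_⟩
              · simp only [Prod.fst_add, Prod.smul_fst, smul_eq_mul]
                field_simp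
                ring
              · simp only [Prod.snd_add, Prod.smul_snd, smul_eq_mul]
                field_simp
                have h2 : (2 : F) = 0 := CharTwo.two_eq_zero
                linear_combination h1 - h0 + (p.2 * r₀.1 - p.2 * r.1) * h2
            · refine ⟨(r.2 - r₀.2) / p.2, Prod.ext ?_ ?_⟩
              · simp only [Prod.fst_add, Prod.smul_fst, smul_eq_mul]
                field_simp
                have h2 : (2 : F) = 0 := CharTwo.two_eq_zero
                linear_combination h1 - h0 + (p.1 * r₀.2 - p.1 * r.2) * h2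
              · simp only [Prod.snd_add, Prod.smul_snd, smul_eq_mul]
                field_simp
                ring
          have h3 : k * (k * a + 1) = 0 := by
            have := hr.2.1
            rw [hk, nrm_add, nrm_smul, hp, hr₀.2.1] at this
            simp only [Prod.smul_fst, Prod.smul_snd, smul_eq_mul] at this
            linear_combination this - k * h0
          rw [Finset.mem_insert, Finset.mem_singleton]
          rcases mul_eq_zero.1 h3 with h4 | h4
          · left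
            rw [hk, h4]
            simp
          · right
            rw [hk]
            congr 2
            have : k = -a⁻¹ := by
              field_simp
              linear_combination h4
            rw [this, CharTwo.neg_eq]
      _ ≤ 2 := Finset.card_le_two
  · rw [Finset.not_nonempty_iff_eq_empty] at hne
    rw [hne]
    simp

theorem card_isom (a b : F) (hN : ∀ s t : F, a * s ^ 2 + s * t + b * t ^ 2 = 0 → s = 0 ∧ t = 0) :
    (Finset.univ.filter fun z : (F × F) × (F × F) =>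
      nrm a b z.1 = a ∧ nrm a b z.2 = b ∧ nrm a b (z.1 + z.2) = a + b + 1).card
      ≤ 2 * (Fintype.card F + 1) := by
  have ha : a ≠ 0 := by
    rintro rfl
    have := (hN 1 0 (by ring)).1
    exact one_ne_zero this
  have h1 : (Finset.univ.filter fun z : (F × F) × (F × F) =>
      nrm a b z.1 = a ∧ nrm a b z.2 = b ∧ nrm a b (z.1 + z.2) = a + b + 1)
      ⊆ (Finset.univ.filter fun p : F × F => nrm a b p = a).biUnion (fun p =>
        (Finset.univ.filter fun r : F × F => nrm a b r = b ∧ nrm a b (p + r) = a + b + 1).image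
          (fun r => (p, r))) := by
    intro z hz
    rw [Finset.mem_filter] at hz
    rw [Finset.mem_biUnion]
    refine ⟨z.1, by simp [hz.2.1], Finset.mem_image.2 ⟨z.2, by simp [hz.2.2], rfl⟩⟩
  refine (Finset.card_le_card h1).trans ?_
  refine (Finset.card_biUnion_le_card_mul _ _ 2 ?_).trans ?_
  · intro p hp
    rw [Finset.mem_filter] at hp
    exact Finset.card_image_le.trans (card_second a b ha p hp.2)
  · rw [mul_comm]
    exact Nat.mul_le_mul_left _ (card_nrm_eq a b hN a ha)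

end aniso

section anisoCount

variable {F : Type*} [Field F] [Fintype F] [DecidableEq F] [CharP F 2]
variable {ι : Type*} [Fintype ι] [DecidableEq ι]

theorem dot_of_dual (f : (ι → F) →ₗ[F] F) (x : ι → F) :
    x ⬝ᵥ (fun i => f (Pi.single i 1)) = f x := by
  conv_rhs => rw [LinearMap.pi_apply_eq_sum_univ f x]
  unfold dotProduct
  apply Finset.sum_congr rfl
  intro i _
  rw [smul_eq_mul]
  congr 1
  change f (Pi.single i 1) = f _
  congr 1
  funext j
  simp [Pi.single_apply, eq_comm]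

theorem exists_dual_vec {x y : ι → F} (hx : x ∉ Submodule.span F {y}) :
    ∃ e : ι → F, x ⬝ᵥ e = 1 ∧ y ⬝ᵥ e = 0 := by
  obtain ⟨f, hf1, hf2⟩ := Submodule.exists_dual_map_eq_bot_of_notMem hx inferInstance
  have hy : f y = 0 := by
    have : f y ∈ (Submodule.span F {y}).map f :=
      Submodule.mem_map_of_mem (Submodule.mem_span_singleton_self y)
    rw [hf2] at this
    exact (Submodule.mem_bot F).1 this
  refine ⟨(f x)⁻¹ • fun i => f (Pi.single i 1), ?_, ?_⟩
  · rw [dotProduct_smul, dot_of_dual, smul_eq_mul, inv_mul_cancel₀ hf1]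
  · rw [dotProduct_smul, dot_of_dual, hy, smul_zero]

theorem exists_dual_pair {m₁ m₂ : ι → F} (h1 : m₁ ≠ 0) (h2 : m₂ ∉ Submodule.span F {m₁}) :
    ∃ e₁ e₂ : ι → F, m₁ ⬝ᵥ e₁ = 1 ∧ m₁ ⬝ᵥ e₂ = 0 ∧ m₂ ⬝ᵥ e₁ = 0 ∧ m₂ ⬝ᵥ e₂ = 1 := by
  have h3 : m₁ ∉ Submodule.span F {m₂} := by
    intro h
    obtain ⟨k, hk⟩ := Submodule.mem_span_singleton.1 h
    have hk0 : k ≠ 0 := by
      rintro rfl
      apply h1
      rw [← hk, zero_smul]
    apply h2
    rw [Submodule.mem_span_singleton]
    exact ⟨k⁻¹, by rw [← hk, smul_smul, inv_mul_cancel₀ hk0, one_smul]⟩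
  obtain ⟨e₁, a1, a2⟩ := exists_dual_vec h3
  obtain ⟨e₂, b1, b2⟩ := exists_dual_vec h2
  exact ⟨e₁, e₂, a1, b2, a2, b1⟩

/-- the rank two form attached to a pair of linear forms -/
def nu (a b : F) (p : (ι → F) × (ι → F)) : (ι → F) → F :=
  fun x => nrm a b (p.1 ⬝ᵥ x, p.2 ⬝ᵥ x)

theorem aniso_realize (Q : QuadraticForm F (ι → F)) {u v : ι → F} (huv : polar Q u v = 1)
    (hQ : ∀ x, Q x = Q u * (polar Q x v) ^ 2 + polar Q x v * polar Q x u + Q v * (polar Q x u) ^ 2)
    {m₁ m₂ : ι → F} (h1 : m₁ ≠ 0) (h2 : m₂ ∉ Submodule.span F {m₁}) :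
    ∃ g : (ι → F) ≃ₗ[F] (ι → F), ⇑(Q.comp g.toLinearMap) = nu (Q u) (Q v) (m₁, m₂) := by
  obtain ⟨e₁, e₂, a1, a2, a3, a4⟩ := exists_dual_pair h1 h2
  have hvu : polar Q v u = 1 := by rw [polar_comm, huv]
  obtain ⟨g, -, -, hg3, hg4⟩ := pair_transport (F := F) e₁ e₂ u v (dotF m₁) (dotF m₂)
    (Q.polarBilin v) (Q.polarBilin u) a1 a2 a3 a4
    (by simp [hvu]) (by simp [CharTwo.two_eq_zero]) (by simp [CharTwo.two_eq_zero]) (by simp [huv])
  refine ⟨g, ?_⟩
  funext x
  have h3 := hg3 x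
  have h4 := hg4 x
  simp only [polarBilin_apply_apply, dotF_apply] at h3 h4
  rw [QuadraticMap.comp_apply, LinearEquiv.coe_coe, hQ, polar_comm Q (g x) v, polar_comm Q (g x) u,
    h3, h4]
  rfl

theorem aniso_fibre (a b : F)
    (hN : ∀ s t : F, a * s ^ 2 + s * t + b * t ^ 2 = 0 → s = 0 ∧ t = 0)
    {m₁ m₂ : ι → F} (h1 : m₁ ≠ 0) (h2 : m₂ ∉ Submodule.span F {m₁}) :
    (Finset.univ.filter fun p : (ι → F) × (ι → F) => nu a b p = nu a b (m₁, m₂)).card
      ≤ 2 * (Fintype.card F + 1) := by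
  obtain ⟨e₁, e₂, a1, a2, a3, a4⟩ := exists_dual_pair h1 h2
  refine le_trans ?_ (card_isom a b hN)
  have key : ∀ p : (ι → F) × (ι → F), nu a b p = nu a b (m₁, m₂) → ∀ x,
      p.1 ⬝ᵥ x = (m₁ ⬝ᵥ x) * (p.1 ⬝ᵥ e₁) + (m₂ ⬝ᵥ x) * (p.1 ⬝ᵥ e₂) ∧
      p.2 ⬝ᵥ x = (m₁ ⬝ᵥ x) * (p.2 ⬝ᵥ e₁) + (m₂ ⬝ᵥ x) * (p.2 ⬝ᵥ e₂) := by
    intro p hp x
    have h3 := congrFun hp (x - (m₁ ⬝ᵥ x) • e₁ - (m₂ ⬝ᵥ x) • e₂)
    unfold nu at h3
    simp only [dotProduct_sub, dotProduct_smul, a1, a2, a3, a4, smul_eq_mul, mul_one, mul_zero,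
      sub_zero, sub_self] at h3
    have h4 : nrm a b ((0 : F), (0 : F)) = 0 := by simp [nrm]
    rw [h4] at h3
    obtain ⟨h5, h6⟩ := hN _ _ h3
    exact ⟨by linear_combination h5, by linear_combination h6⟩
  apply Finset.card_le_card_of_injOn
    (fun p => ((p.1 ⬝ᵥ e₁, p.2 ⬝ᵥ e₁), (p.1 ⬝ᵥ e₂, p.2 ⬝ᵥ e₂)))
  · intro p hp
    rw [Finset.mem_coe, Finset.mem_filter] at hp
    rw [Finset.mem_coe, Finset.mem_filter]
    refine ⟨Finset.mem_univ _, ?_, ?_, ?_⟩
    · have := congrFun hp.2 e₁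
      unfold nu at this
      simp only [a1, a3] at this
      rw [this]
      simp [nrm]
    · have := congrFun hp.2 e₂
      unfold nu at this
      simp only [a2, a4] at this
      rw [this]
      simp [nrm]
    · have := congrFun hp.2 (e₁ + e₂)
      unfold nu at this
      simp only [dotProduct_add, a1, a2, a3, a4] at this
      simp only [Prod.mk_add_mk]
      rw [this]
      simp [nrm]
      ring
  · intro p hp p' hp' h
    rw [Finset.mem_coe, Finset.mem_filter] at hp hp'
    simp only [Prod.mk.injEq] at h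
    obtain ⟨⟨h11, h21⟩, h12, h22⟩ := h
    refine Prod.ext ?_ ?_
    · funext j
      have e := (key p hp.2 (Pi.single j 1)).1
      have e' := (key p' hp'.2 (Pi.single j 1)).1
      rw [dotProduct_single_one] at e e'
      rw [e, e', h11, h12]
    · funext j
      have e := (key p hp.2 (Pi.single j 1)).2
      have e' := (key p' hp'.2 (Pi.single j 1)).2
      rw [dotProduct_single_one] at e e'
      rw [e, e', h21, h22]

open scoped Classical in
theorem card_indep_pairs :
    (Fintype.card F ^ Fintype.card ι - 1) * (Fintype.card F ^ Fintype.card ι - Fintype.card F)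
      ≤ (Finset.univ.filter fun p : (ι → F) × (ι → F) =>
        p.1 ≠ 0 ∧ p.2 ∉ Submodule.span F {p.1}).card := by
  classical
  set q := Fintype.card F with hq
  set N := q ^ Fintype.card ι with hN
  set U : Finset ((ι → F) × (ι → F)) := (Finset.univ.erase 0) ×ˢ Finset.univ with hU
  have hUc : U.card = (N - 1) * N := by
    rw [hU, Finset.card_product, Finset.card_erase_of_mem (Finset.mem_univ _), Finset.card_univ,
      Fintype.card_fun]
  have hbad : (U.filter fun p => p.2 ∈ Submodule.span F {p.1}).card ≤ (N - 1) * q := by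
    have h1 : (U.filter fun p => p.2 ∈ Submodule.span F {p.1}) ⊆
        (((Finset.univ.erase 0 : Finset (ι → F)) ×ˢ (Finset.univ : Finset F)).image
          fun z => (z.1, z.2 • z.1)) := by
      intro p hp
      rw [Finset.mem_filter, hU, Finset.mem_product] at hp
      obtain ⟨k, hk⟩ := Submodule.mem_span_singleton.1 hp.2
      refine Finset.mem_image.2 ⟨(p.1, k), ?_, ?_⟩
      · rw [Finset.mem_product]
        exact ⟨hp.1.1, Finset.mem_univ _⟩
      · exact Prod.ext rfl hk
    refine (Finset.card_le_card h1).trans (Finset.card_image_le.trans ?_)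
    rw [Finset.card_product, Finset.card_erase_of_mem (Finset.mem_univ _), Finset.card_univ,
      Finset.card_univ, Fintype.card_fun]
  have hsplit := Finset.card_filter_add_card_filter_not (s := U)
    (fun p => p.2 ∈ Submodule.span F {p.1})
  have heq : (U.filter fun p => ¬ p.2 ∈ Submodule.span F {p.1})
      = Finset.univ.filter fun p : (ι → F) × (ι → F) =>
        p.1 ≠ 0 ∧ p.2 ∉ Submodule.span F {p.1} := by
    ext p
    simp [hU]
  rw [← heq]
  have e : (N - 1) * (N - q) = (N - 1) * N - (N - 1) * q := Nat.mul_sub _ _ _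
  rw [e]
  omega

theorem aniso_count (𝒬 : Finset (QuadraticForm F (ι → F)))
    (hcl : ∀ g : (ι → F) ≃ₗ[F] (ι → F), ∀ Q ∈ 𝒬, Q.comp g.toLinearMap ∈ 𝒬)
    {Q : QuadraticForm F (ι → F)} (hQ𝒬 : Q ∈ 𝒬) {u v : ι → F} (huv : polar Q u v = 1)
    (hQ : ∀ x, Q x = Q u * (polar Q x v) ^ 2 + polar Q x v * polar Q x u + Q v * (polar Q x u) ^ 2)
    (hN : ∀ s t : F, Q u * s ^ 2 + s * t + Q v * t ^ 2 = 0 → s = 0 ∧ t = 0) :
    (Fintype.card F ^ Fintype.card ι - 1) * (Fintype.card F ^ Fintype.card ι - Fintype.card F)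
      ≤ 2 * (Fintype.card F + 1) * 𝒬.card := by
  classical
  refine card_indep_pairs.trans ?_
  set PP := Finset.univ.filter fun p : (ι → F) × (ι → F) =>
        p.1 ≠ 0 ∧ p.2 ∉ Submodule.span F {p.1} with hPP
  have h1 : PP.card ≤ 2 * (Fintype.card F + 1) * (PP.image (nu (Q u) (Q v))).card := by
    apply Finset.card_le_mul_card_image
    intro f hf
    obtain ⟨p, hp, rfl⟩ := Finset.mem_image.1 hf
    rw [hPP, Finset.mem_filter] at hp
    refine le_trans (Finset.card_le_card ?_) (aniso_fibre (Q u) (Q v) hN hp.2.1 hp.2.2)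
    intro p' hp'
    rw [Finset.mem_filter] at hp' ⊢
    exact ⟨Finset.mem_univ _, hp'.2⟩
  refine h1.trans (Nat.mul_le_mul_left _ ?_)
  refine (Finset.card_le_card ?_).trans
    (Finset.card_image_le (s := 𝒬) (f := fun Q' : QuadraticForm F (ι → F) => (⇑Q' : (ι → F) → F)))
  intro f hf
  obtain ⟨p, hp, rfl⟩ := Finset.mem_image.1 hf
  rw [hPP, Finset.mem_filter] at hp
  obtain ⟨g, hg⟩ := aniso_realize Q huv hQ hp.2.1 hp.2.2
  exact Finset.mem_image.2 ⟨_, hcl g Q hQ𝒬, hg⟩

end anisoCount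

section final

variable {F : Type*} [Field F] [Fintype F] [DecidableEq F] [CharP F 2] {m : ℕ}

theorem quad_orbit_bound (𝒬 : Finset (QuadraticForm F (Fin (m + 2) → F)))
    (hcl : ∀ g : (Fin (m + 2) → F) ≃ₗ[F] (Fin (m + 2) → F), ∀ Q ∈ 𝒬, Q.comp g.toLinearMap ∈ 𝒬)
    {Q : QuadraticForm F (Fin (m + 2) → F)} (hQ : Q ∈ 𝒬) {x y : Fin (m + 2) → F}
    (hxy : polar Q x y ≠ 0) :
    (Fintype.card F ^ (m + 2) - 1) * (Fintype.card F ^ (m + 2) - Fintype.card F)
      ≤ 2 * (Fintype.card F + 1) * 𝒬.card := by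
  have huv : polar Q x ((polar Q x y)⁻¹ • y) = 1 := by
    rw [polar_smul_right, smul_eq_mul, inv_mul_cancel₀ hxy]
  rcases quad_dichotomy Q huv with ⟨u', v', hu', hv', huv'⟩ | ⟨h1, h2⟩
  · have h := hyp_count 𝒬 hcl hQ hu' hv' huv'
    set q := Fintype.card F with hq
    have hq2 : 2 ≤ q := Fintype.one_lt_card
    obtain ⟨r, hr⟩ : ∃ r, q = r + 2 := ⟨q - 2, by omega⟩
    have e1 : (q ^ (m + 2) - 1) * (q ^ (m + 2) - q) ≤ q ^ (m + 2) * q ^ (m + 2) :=
      Nat.mul_le_mul (Nat.sub_le _ _) (Nat.sub_le _ _)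
    have e2 : q ^ (m + 2) * q ^ (m + 2) ≤ (q + 1) * ((q - 1) * (q + 1) * q ^ (2 * m + 1)) := by
      have e3 : q ^ (m + 2) * q ^ (m + 2) = q ^ 3 * q ^ (2 * m + 1) := by ring
      have e4 : (q + 1) * ((q - 1) * (q + 1) * q ^ (2 * m + 1))
          = ((q + 1) * ((q - 1) * (q + 1))) * q ^ (2 * m + 1) := by ring
      rw [e3, e4]
      apply Nat.mul_le_mul_right
      rw [hr]
      simp only [show r + 2 - 1 = r + 1 by omega]
      nlinarith
    calc _ ≤ (q + 1) * ((q - 1) * (q + 1) * q ^ (2 * m + 1)) := e1.trans e2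
      _ ≤ (q + 1) * (2 * 𝒬.card) := Nat.mul_le_mul_left _ h
      _ = 2 * (q + 1) * 𝒬.card := by ring
  · have h := aniso_count 𝒬 hcl hQ huv h1 h2
    rwa [Fintype.card_fin] at h

end final

end Cfsg.Agent.Lib.Helper39.Weil
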