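import Cfsg.Agent.Lib.Helper39.Weil.SymOrbit
import Cfsg.Agent.Lib.Helper39.SU.Fourier
import Cfsg.Agent.Lib.Helper80.Inflation
import Cfsg.Agent.Lib.Helper5.SpSimple
import Cfsg.Agent.Lib.Helper5.SpCenter

/-!
# The lower bound for the degrees of the symplectic group in odd characteristic
-/

set_option autoImplicit false
set_option linter.unusedSectionVars false

namespace Cfsg.Agent.Lib.Helper39.Weil

open Cfsg Cfsg.Agent.Lib Cfsg.Agent.Lib.Helper15 Cfsg.Agent.Lib.Helper39.SUDeg Matrix
open scoped ComplexConjugate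

/-- the set of nontrivial characters of an abelian subgroup occurring in a character -/
theorem abstract_siegel {B : Type*} [AddCommGroup B] [Fintype B] [DecidableEq B] {G : Type*}
    [Group G] {χ : G → ℂ} (hχ : IsCharacter G χ) (a : Multiplicative B →* G)
    (L : B → AddChar B ℂ) (hL : ∀ z : B, z ≠ 0 → ∑ T, L T z = 0) (hL0 : ∀ S, L 0 S = 1)
    (hnt : ∃ S, χ (a (Multiplicative.ofAdd S)) ≠ χ 1) {n : ℕ} (hn : χ 1 = n) :
    ∃ 𝒮 : Finset B, 𝒮.Nonempty ∧ 0 ∉ 𝒮 ∧ 𝒮.card ≤ n ∧
      ∀ σ τ : B → B, Function.Bijective σ →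
        (∀ S, χ (a (Multiplicative.ofAdd (σ S))) = χ (a (Multiplicative.ofAdd S))) →
        (∀ T S, L (τ T) S = L T (σ S)) → (∀ T, τ T = 0 → T = 0) → ∀ T ∈ 𝒮, τ T ∈ 𝒮 := by
  set f : B → ℂ := fun S => χ (a (Multiplicative.ofAdd S)) with hf
  choose nT hnT using fun T => gMult_nat a hχ (L T)
  have hinv := gMult_inversion f L hL
  have hf0 : f 0 = χ 1 := by
    rw [hf]
    simp
  have hsum : n = ∑ T, nT T := by
    have h1 := hinv 0
    rw [hf0, hn] at h1
    simp only [AddChar.map_zero_eq_one, mul_one] at h1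
    have h2 : (n : ℂ) = ((∑ T, nT T : ℕ) : ℂ) := by
      rw [← h1, Nat.cast_sum]
      exact Finset.sum_congr rfl (fun T _ => hnT T)
    exact_mod_cast h2
  set 𝒮 : Finset B := Finset.univ.filter (fun T => T ≠ 0 ∧ nT T ≠ 0) with h𝒮
  refine ⟨𝒮, ?_, ?_, ?_, ?_⟩
  · by_contra hcon
    rw [Finset.not_nonempty_iff_eq_empty] at hcon
    obtain ⟨S, hS⟩ := hnt
    apply hS
    have hz : ∀ T : B, T ≠ 0 → gMult f (L T) = 0 := by
      intro T hT
      have h1 : T ∉ 𝒮 := by rw [hcon]; simp
      rw [h𝒮, Finset.mem_filter] at h1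
      push Not at h1
      have h3 := h1 (Finset.mem_univ _) hT
      have h4 := hnT T
      rw [h3] at h4
      simpa using h4
    have e1 := hinv S
    have e2 := hinv 0
    rw [Finset.sum_eq_single 0 (fun T _ hT => by rw [hz T hT, zero_mul])
      (fun h => absurd (Finset.mem_univ _) h), hL0] at e1 e2
    rw [← hf0, ← e2]
    exact e1.symm
  · rw [h𝒮, Finset.mem_filter]
    intro h
    exact h.2.1 rfl
  · rw [hsum, Finset.card_eq_sum_ones]
    refine (Finset.sum_le_sum ?_).trans (Finset.sum_le_sum_of_subset (Finset.subset_univ 𝒮))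
    intro T hT
    rw [h𝒮, Finset.mem_filter] at hT
    exact Nat.one_le_iff_ne_zero.2 hT.2.2
  · intro σ τ hσ hχσ hLτ hτ0 T hT
    rw [h𝒮, Finset.mem_filter] at hT ⊢
    refine ⟨Finset.mem_univ _, fun h => hT.2.1 (hτ0 T h), ?_⟩
    have h1 : gMult f (L (τ T)) = gMult f (L T) := by
      unfold gMult
      congr 1
      rw [← hσ.sum_comp (fun S => f S * conj (L T S))]
      apply Finset.sum_congr rfl
      intro S _
      rw [hLτ, hf]
      simp only
      rw [hχσ]
    have h2 : (nT (τ T) : ℂ) = nT T := by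
      rw [← hnT, ← hnT]
      exact h1
    have h3 : nT (τ T) = nT T := by exact_mod_cast h2
    rw [h3]
    exact hT.2.2

variable {F : Type*} [Field F] [Fintype F] [DecidableEq F]
variable (F) (ι : Type*) [Fintype ι] [DecidableEq ι]

/-- the additive group of symmetric matrices -/
def symSub : AddSubgroup (Matrix ι ι F) where
  carrier := {S | Sᵀ = S}
  zero_mem' := Matrix.transpose_zero
  add_mem' := by
    intro a b ha hb
    change (a + b)ᵀ = a + b
    rw [Matrix.transpose_add, ha, hb]
  neg_mem' := by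
    intro a ha
    change (-a)ᵀ = -a
    rw [Matrix.transpose_neg, ha]

variable {F ι}

theorem mem_symSub {S : Matrix ι ι F} : S ∈ symSub F ι ↔ Sᵀ = S := Iff.rfl

noncomputable instance : Fintype (symSub F ι) := Fintype.ofFinite _

/-- the congruence action -/
def scong (A : Matrix ι ι F) (S : symSub F ι) : symSub F ι :=
  ⟨A * S.1 * Aᵀ, by
    rw [mem_symSub, Matrix.transpose_mul, Matrix.transpose_mul, Matrix.transpose_transpose,
      mem_symSub.1 S.2, Matrix.mul_assoc]⟩

theorem scong_val (A : Matrix ι ι F) (S : symSub F ι) : (scong A S).1 = A * S.1 * Aᵀ := rfl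

theorem scong_injective {A : Matrix ι ι F} (hA : A.det ≠ 0) : Function.Injective (scong A) := by
  intro S S' h
  have h1 := congrArg Subtype.val h
  rw [scong_val, scong_val] at h1
  have hu : IsUnit A.det := isUnit_iff_ne_zero.2 hA
  have hu' : IsUnit (Aᵀ).det := by
    rw [Matrix.det_transpose]
    exact hu
  apply Subtype.ext
  have h2 : A⁻¹ * (A * S.1 * Aᵀ * (Aᵀ)⁻¹) = A⁻¹ * (A * S'.1 * Aᵀ * (Aᵀ)⁻¹) := by
    rw [h1]
  rwa [Matrix.mul_nonsing_inv_cancel_right _ _ hu', Matrix.mul_nonsing_inv_cancel_right _ _ hu',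
    Matrix.nonsing_inv_mul_cancel_left _ _ hu, Matrix.nonsing_inv_mul_cancel_left _ _ hu] at h2

theorem scong_bijective {A : Matrix ι ι F} (hA : A.det ≠ 0) : Function.Bijective (scong A) :=
  Finite.injective_iff_bijective.1 (scong_injective hA)

theorem scong_zero (A : Matrix ι ι F) : scong A (0 : symSub F ι) = 0 := by
  apply Subtype.ext
  rw [scong_val]
  simp

/-- the additive character `S ↦ ψ (tr (T S))` -/
noncomputable def symChar (ψ : AddChar F ℂ) (T : symSub F ι) : AddChar (symSub F ι) ℂ where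
  toFun S := ψ (T.1 * S.1).trace
  map_zero_eq_one' := by simp
  map_add_eq_mul' := by
    intro S S'
    rw [AddSubgroup.coe_add, Matrix.mul_add, Matrix.trace_add, AddChar.map_add_eq_mul]

theorem symChar_apply (ψ : AddChar F ℂ) (T S : symSub F ι) :
    symChar ψ T S = ψ (T.1 * S.1).trace := rfl

theorem symChar_zero (ψ : AddChar F ℂ) (S : symSub F ι) : symChar ψ 0 S = 1 := by
  rw [symChar_apply]
  simp

theorem symChar_scong (ψ : AddChar F ℂ) (A : Matrix ι ι F) (T S : symSub F ι) :
    symChar ψ (scong Aᵀ T) S = symChar ψ T (scong A S) := by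
  rw [symChar_apply, symChar_apply, scong_val, scong_val, Matrix.transpose_transpose]
  congr 1
  rw [Matrix.mul_assoc, Matrix.mul_assoc, Matrix.trace_mul_comm, Matrix.mul_assoc, Matrix.mul_assoc]

theorem exists_sym_trace_eq_one (h2 : (2 : F) ≠ 0) {S : symSub F ι} (hS : S ≠ 0) :
    ∃ T : symSub F ι, (T.1 * S.1).trace = 1 := by
  obtain ⟨i, j, hij⟩ : ∃ i j, S.1 i j ≠ 0 := by
    by_contra h
    push Not at h
    apply hS
    apply Subtype.ext
    ext i j
    exact h i j
  set c := (2 * S.1 i j)⁻¹ with hc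
  have hS' : S.1 j i = S.1 i j := by
    have := congrFun (congrFun (mem_symSub.1 S.2) j) i
    rw [Matrix.transpose_apply] at this
    exact this.symm
  refine ⟨⟨Matrix.single j i c + Matrix.single i j c, ?_⟩, ?_⟩
  · rw [mem_symSub, Matrix.transpose_add, Matrix.transpose_single, Matrix.transpose_single, add_comm]
  · simp only
    rw [Matrix.add_mul, Matrix.trace_add, Matrix.trace_single_mul, Matrix.trace_single_mul, hS',
      smul_eq_mul, hc]
    field_simp
    ring

theorem sum_symChar (h2 : (2 : F) ≠ 0) {ψ : AddChar F ℂ} (hψ : ψ 1 ≠ 1) {S : symSub F ι}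
    (hS : S ≠ 0) : ∑ T, symChar ψ T S = 0 := by
  let Λ : AddChar (symSub F ι) ℂ :=
    { toFun := fun T => ψ (T.1 * S.1).trace
      map_zero_eq_one' := by simp
      map_add_eq_mul' := by
        intro T T'
        rw [AddSubgroup.coe_add, Matrix.add_mul, Matrix.trace_add, AddChar.map_add_eq_mul] }
  have hΛ : Λ ≠ 1 := by
    intro h
    obtain ⟨T, hT⟩ := exists_sym_trace_eq_one h2 hS
    have h1 : Λ T = 1 := by rw [h]; rfl
    change ψ (T.1 * S.1).trace = 1 at h1
    rw [hT] at h1
    exact hψ h1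
  exact AddChar.sum_eq_zero_of_ne_one hΛ

/-- elements of the unipotent radical of the Siegel parabolic -/
def uS (S : symSub F ι) : symplecticGroup ι F :=
  ⟨fromBlocks 1 S.1 0 1, by
    rw [SymplecticGroup.fromBlocks_mem_iff]
    refine ⟨by simp, ?_, by simp⟩
    rw [mem_symSub.1 S.2]
    simp⟩

theorem uS_val (S : symSub F ι) : (uS S).1 = fromBlocks 1 S.1 0 1 := rfl

/-- the unipotent radical as a homomorphism -/
def uHom : Multiplicative (symSub F ι) →* symplecticGroup ι F :=
  MonoidHom.mk' (fun S => uS (Multiplicative.toAdd S)) (by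
    intro S S'
    apply Subtype.ext
    change fromBlocks 1 ((Multiplicative.toAdd S + Multiplicative.toAdd S').1) 0 1
      = fromBlocks 1 ((Multiplicative.toAdd S).1) 0 1
        * fromBlocks 1 ((Multiplicative.toAdd S').1) 0 1
    rw [Matrix.fromBlocks_multiply]
    simp only [Matrix.one_mul, Matrix.mul_one, Matrix.mul_zero, Matrix.zero_mul, add_zero, zero_add]
    rw [AddSubgroup.coe_add, add_comm])

theorem uHom_apply (S : symSub F ι) : uHom (Multiplicative.ofAdd S) = uS S := rfl

/-- elements of the Levi subgroup -/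
noncomputable def lS {A : Matrix ι ι F} (hA : A.det ≠ 0) : symplecticGroup ι F :=
  ⟨fromBlocks A 0 0 (Aᵀ)⁻¹, by
    rw [SymplecticGroup.fromBlocks_mem_iff]
    refine ⟨by simp, by simp, ?_⟩
    have hu : IsUnit (Aᵀ).det := by
      rw [Matrix.det_transpose]
      exact isUnit_iff_ne_zero.2 hA
    rw [Matrix.mul_nonsing_inv _ hu]
    simp⟩

theorem lS_conj {A : Matrix ι ι F} (hA : A.det ≠ 0) (S : symSub F ι) :
    lS hA * uS S * (lS hA)⁻¹ = uS (scong A S) := by
  rw [mul_inv_eq_iff_eq_mul]
  apply Subtype.ext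
  change fromBlocks A 0 0 (Aᵀ)⁻¹ * fromBlocks 1 S.1 0 1
    = fromBlocks 1 (scong A S).1 0 1 * fromBlocks A 0 0 (Aᵀ)⁻¹
  have hu : IsUnit (Aᵀ).det := by
    rw [Matrix.det_transpose]
    exact isUnit_iff_ne_zero.2 hA
  rw [Matrix.fromBlocks_multiply, Matrix.fromBlocks_multiply, scong_val]
  simp only [Matrix.one_mul, Matrix.mul_one, Matrix.mul_zero, Matrix.zero_mul, add_zero, zero_add]
  congr 1
  rw [Matrix.mul_nonsing_inv_cancel_right _ _ hu]

theorem uS_not_scalar {S : symSub F ι} (hS : S ≠ 0) (c : F) :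
    (uS S).1 ≠ Matrix.scalar (ι ⊕ ι) c := by
  intro h
  apply hS
  apply Subtype.ext
  ext i j
  have := congrFun (congrFun h (Sum.inl i)) (Sum.inr j)
  rw [uS_val] at this
  simpa [Matrix.scalar_apply, Matrix.diagonal_apply] using this

theorem sp_not_ker {m : ℕ} (hm : 2 ≤ m) (h3 : 3 ≤ Fintype.card F)
    {χ : symplecticGroup (Fin m) F → ℂ}
    (hχ : IsIrrCharacter (symplecticGroup (Fin m) F) χ) (h1 : χ 1 ≠ 1)
    {g : symplecticGroup (Fin m) F}
    (hg : g ∉ Subgroup.center (symplecticGroup (Fin m) F)) : χ g ≠ χ 1 := by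
  classical
  have := Fintype.ofFinite (symplecticGroup (Fin m) F)
  intro h
  have hn' := Helper80.charKer_normal (irr_char hχ)
  rcases Helper5.sp_normal_le_center_or (Helper80.charKer χ (irr_char hχ)) with hb | ht
  · exact hg (hb h)
  · rw [Helper5.sp_commutator_eq_top (by omega), top_le_iff] at ht
    have hall : ∀ g, χ g = χ 1 := by
      intro g
      have : g ∈ Helper80.charKer χ (irr_char hχ) := by rw [ht]; trivial
      exact this
    have h2 := irr_inner_self hχ
    unfold classInner at h2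
    simp_rw [hall] at h2
    obtain ⟨k, hk⟩ := char_one_nat (irr_char hχ)
    rw [hk] at h2
    rw [Finset.sum_const, Finset.card_univ, nsmul_eq_mul, Complex.conj_natCast,
      Nat.card_eq_fintype_card] at h2
    have hc : (Fintype.card (symplecticGroup (Fin m) F) : ℂ) ≠ 0 := by
      exact_mod_cast Fintype.card_ne_zero
    rw [← mul_assoc, inv_mul_cancel₀ hc, one_mul] at h2
    have h3 : k * k = 1 := by exact_mod_cast h2
    have h4 : k = 1 := Nat.eq_one_of_mul_eq_one_right h3
    apply h1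
    rw [hk, h4]
    simp

/-- the bound for `Sp_{2m}(q)`, `q` odd -/
theorem sp_odd_bound (m : ℕ) (hm : 2 ≤ m) (hodd : Odd (Fintype.card F))
    {χ : symplecticGroup (Fin m) F → ℂ}
    (hχ : IsIrrCharacter (symplecticGroup (Fin m) F) χ) (h1 : χ 1 ≠ 1) {n : ℕ} (hn : χ 1 = n) :
    Fintype.card F ^ m - 1 ≤ 2 * n := by
  have hodd' : Fintype.card F % 2 = 1 := Nat.odd_iff.1 hodd
  have h3 : 3 ≤ Fintype.card F := by
    have : 2 ≤ Fintype.card F := Fintype.one_lt_card
    omega
  have h2 : (2 : F) ≠ 0 := by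
    apply Ring.two_ne_zero
    intro h
    rw [FiniteField.even_card_iff_char_two] at h
    omega
  obtain ⟨ψ, hψ⟩ := exists_addChar_one_ne (F := F)
  obtain ⟨𝒮, hne, h0, hcard, hinv⟩ := abstract_siegel (irr_char hχ) (uHom (F := F) (ι := Fin m))
    (symChar ψ) (fun z hz => sum_symChar h2 hψ hz) (symChar_zero ψ) (by
      obtain ⟨S, hS⟩ : ∃ S : symSub F (Fin m), S ≠ 0 := by
        refine ⟨⟨1, Matrix.transpose_one⟩, ?_⟩
        intro h
        have h2 := congrArg Subtype.val h
        have h3 := congrFun (congrFun h2 ⟨0, by omega⟩) ⟨0, by omega⟩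
        simp at h3
      refine ⟨S, ?_⟩
      apply sp_not_ker hm h3 hχ h1
      intro hc
      rw [uHom_apply] at hc
      obtain ⟨c, hc⟩ := Helper5.sp_center_scalar m _ hc
      exact uS_not_scalar hS c hc) hn
  have hb := sym_orbit_bound (F := F) (ι := Fin m) ⟨0, by omega⟩ hodd' (𝒮.image Subtype.val)
    (hne.image _) (by
      intro h
      obtain ⟨T, hT, hT0⟩ := Finset.mem_image.1 h
      apply h0
      have : T = 0 := Subtype.ext hT0
      rwa [this] at hT) (by
      intro T hT
      obtain ⟨T', -, rfl⟩ := Finset.mem_image.1 hT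
      exact T'.2) (by
      intro A hA T hT
      obtain ⟨T', hT', rfl⟩ := Finset.mem_image.1 hT
      refine Finset.mem_image.2 ⟨scong Aᵀ T', ?_, ?_⟩
      · apply hinv (scong A) (scong Aᵀ) (scong_bijective hA) _ (symChar_scong ψ A) _ T' hT'
        · intro S
          rw [uHom_apply, uHom_apply, ← lS_conj hA]
          exact irr_cf hχ _ _
        · intro T h
          apply scong_injective (A := Aᵀ) (by rwa [Matrix.det_transpose])
          rw [h, scong_zero]
      · rw [scong_val, Matrix.transpose_transpose])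
  rw [Finset.card_image_of_injective _ Subtype.val_injective, Fintype.card_fin] at hb
  omega

end Cfsg.Agent.Lib.Helper39.Weil
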