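import Cfsg.Agent.Lib.Helper39.Weil.Siegel
import Cfsg.Agent.Lib.Helper39.Weil.Quad2

/-!
# The lower bound for the degrees of the symplectic group in even characteristic
-/

set_option autoImplicit false
set_option linter.unusedSectionVars false

namespace Cfsg.Agent.Lib.Helper39.Weil

open Cfsg Cfsg.Agent.Lib Cfsg.Agent.Lib.Helper15 Cfsg.Agent.Lib.Helper39.SUDeg Matrix
open scoped ComplexConjugate

/-- the set of characters of an abelian subgroup occurring in a character -/
theorem abstract_siegel2 {B Θ : Type*} [AddCommGroup B] [Fintype B] [DecidableEq B] [Fintype Θ]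
    [DecidableEq Θ] {G : Type*} [Group G] {χ : G → ℂ} (hχ : IsCharacter G χ)
    (a : Multiplicative B →* G) (L : Θ → AddChar B ℂ) (e : B ≃ Θ)
    (hL : ∀ z : B, z ≠ 0 → ∑ T, L T z = 0) {n : ℕ} (hn : χ 1 = n) :
    ∃ 𝒮 : Finset Θ, 𝒮.card ≤ n ∧
      (∀ S, (∀ T ∈ 𝒮, L T S = 1) → χ (a (Multiplicative.ofAdd S)) = χ 1) ∧
      ∀ (σ : B → B) (τ : Θ → Θ), Function.Bijective σ →
        (∀ S, χ (a (Multiplicative.ofAdd (σ S))) = χ (a (Multiplicative.ofAdd S))) →
        (∀ T S, L (τ T) S = L T (σ S)) → ∀ T ∈ 𝒮, τ T ∈ 𝒮 := by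
  set f : B → ℂ := fun S => χ (a (Multiplicative.ofAdd S)) with hf
  choose nT hnT using fun T => gMult_nat a hχ (L T)
  have hinv : ∀ y, ∑ T, gMult f (L T) * L T y = f y := by
    intro y
    have := gMult_inversion f (fun b => L (e b)) (by
      intro z hz
      rw [Equiv.sum_comp e (fun T => L T z)]
      exact hL z hz) y
    rw [Equiv.sum_comp e (fun T => gMult f (L T) * L T y)] at this
    exact this
  have hf0 : f 0 = χ 1 := by
    rw [hf]
    simp
  have hsum : n = ∑ T, nT T := by
    have h1 := hinv 0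
    rw [hf0, hn] at h1
    simp only [AddChar.map_zero_eq_one, mul_one] at h1
    have h2 : (n : ℂ) = ((∑ T, nT T : ℕ) : ℂ) := by
      rw [← h1, Nat.cast_sum]
      exact Finset.sum_congr rfl (fun T _ => hnT T)
    exact_mod_cast h2
  set 𝒮 : Finset Θ := Finset.univ.filter (fun T => nT T ≠ 0) with h𝒮
  refine ⟨𝒮, ?_, ?_, ?_⟩
  · rw [hsum, Finset.card_eq_sum_ones]
    refine (Finset.sum_le_sum ?_).trans (Finset.sum_le_sum_of_subset (Finset.subset_univ 𝒮))
    intro T hT
    rw [h𝒮, Finset.mem_filter] at hT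
    exact Nat.one_le_iff_ne_zero.2 hT.2
  · intro S hS
    have e1 := hinv S
    have e2 := hinv 0
    rw [← hf0, ← e2]
    change f S = _
    rw [← e1]
    apply Finset.sum_congr rfl
    intro T _
    by_cases hT : T ∈ 𝒮
    · rw [hS T hT, AddChar.map_zero_eq_one]
    · rw [h𝒮, Finset.mem_filter] at hT
      push Not at hT
      have h3 := hT (Finset.mem_univ _)
      have h4 := hnT T
      rw [h3] at h4
      have h5 : gMult f (L T) = 0 := by simpa using h4
      rw [h5, zero_mul, zero_mul]
  · intro σ τ hσ hχσ hLτ T hT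
    rw [h𝒮, Finset.mem_filter] at hT ⊢
    refine ⟨Finset.mem_univ _, ?_⟩
    have h1 : gMult f (L (τ T)) = gMult f (L T) := by
      unfold gMult
      congr 1
      rw [← hσ.sum_comp (fun S => f S * conj (L T S))]
      apply Finset.sum_congr rfl
      intro S _
      rw [hLτ, hf]
      simp only
      rw [hχσ]
    have h2 : (nT (τ T) : ℂ) = nT T := by
      rw [← hnT, ← hnT]
      exact h1
    have h3 : nT (τ T) = nT T := by exact_mod_cast h2
    rw [h3]
    exact hT.2

variable {F : Type*} [Field F] [Fintype F] [DecidableEq F] {n : ℕ}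

variable (F n) in
/-- upper triangular matrices -/
def utSub : AddSubgroup (Matrix (Fin n) (Fin n) F) where
  carrier := {C | ∀ i j, j < i → C i j = 0}
  zero_mem' := fun _ _ _ => rfl
  add_mem' := by
    intro a b ha hb i j h
    rw [Matrix.add_apply, ha i j h, hb i j h, add_zero]
  neg_mem' := by
    intro a ha i j h
    rw [Matrix.neg_apply, ha i j h, neg_zero]

noncomputable instance : Fintype (utSub F n) := Fintype.ofFinite _

/-- symmetric matrices and upper triangular matrices -/
def symUtEquiv : symSub F (Fin n) ≃ utSub F n where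
  toFun S := ⟨Matrix.of fun i j => if i ≤ j then S.1 i j else 0, fun i j h => if_neg (not_le.2 h)⟩
  invFun C := ⟨Matrix.of fun i j => if i ≤ j then C.1 i j else C.1 j i, by
    rw [mem_symSub]
    ext i j
    simp only [Matrix.transpose_apply, Matrix.of_apply]
    rcases lt_trichotomy i j with h | h | h
    · rw [if_neg (not_le.2 h), if_pos h.le]
    · subst h
      rfl
    · rw [if_pos h.le, if_neg (not_le.2 h)]⟩
  left_inv := by
    intro S
    apply Subtype.ext
    ext i j
    simp only [Matrix.of_apply]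
    by_cases h : i ≤ j
    · rw [if_pos h, if_pos h]
    · rw [if_neg h, if_pos (not_le.1 h).le]
      have := congrFun (congrFun (mem_symSub.1 S.2) i) j
      rw [Matrix.transpose_apply] at this
      exact this
  right_inv := by
    intro C
    apply Subtype.ext
    ext i j
    simp only [Matrix.of_apply]
    by_cases h : i ≤ j
    · rw [if_pos h, if_pos h]
    · rw [if_neg h]
      exact (C.2 i j (not_le.1 h)).symm

/-- the additive character `S ↦ ψ (tr (C S))` -/
noncomputable def utChar (ψ : AddChar F ℂ) (C : utSub F n) : AddChar (symSub F (Fin n)) ℂ where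
  toFun S := ψ (C.1 * S.1).trace
  map_zero_eq_one' := by simp
  map_add_eq_mul' := by
    intro S S'
    rw [AddSubgroup.coe_add, Matrix.mul_add, Matrix.trace_add, AddChar.map_add_eq_mul]

theorem utChar_apply (ψ : AddChar F ℂ) (C : utSub F n) (S : symSub F (Fin n)) :
    utChar ψ C S = ψ (C.1 * S.1).trace := rfl

theorem exists_ut_trace_eq_one {S : symSub F (Fin n)} (hS : S ≠ 0) :
    ∃ C : utSub F n, (C.1 * S.1).trace = 1 := by
  obtain ⟨i, j, hle, hij⟩ : ∃ i j, i ≤ j ∧ S.1 j i ≠ 0 := by
    by_contra h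
    push Not at h
    apply hS
    apply Subtype.ext
    ext i j
    rcases le_total j i with hl | hl
    · exact h j i hl
    · have := congrFun (congrFun (mem_symSub.1 S.2) i) j
      rw [Matrix.transpose_apply] at this
      rw [← this]
      exact h i j hl
  refine ⟨⟨Matrix.single i j (S.1 j i)⁻¹, ?_⟩, ?_⟩
  · intro k l hlk
    rw [Matrix.single_apply, if_neg]
    rintro ⟨rfl, rfl⟩
    exact absurd hle (not_le.2 hlk)
  · simp only
    rw [Matrix.trace_single_mul, smul_eq_mul, inv_mul_cancel₀ hij]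

theorem sum_utChar {ψ : AddChar F ℂ} (hψ : ψ 1 ≠ 1) {S : symSub F (Fin n)} (hS : S ≠ 0) :
    ∑ C, utChar ψ C S = 0 := by
  let Λ : AddChar (utSub F n) ℂ :=
    { toFun := fun C => ψ (C.1 * S.1).trace
      map_zero_eq_one' := by simp
      map_add_eq_mul' := by
        intro T T'
        rw [AddSubgroup.coe_add, Matrix.add_mul, Matrix.trace_add, AddChar.map_add_eq_mul] }
  have hΛ : Λ ≠ 1 := by
    intro h
    obtain ⟨T, hT⟩ := exists_ut_trace_eq_one hS
    have h1 : Λ T = 1 := by rw [h]; rfl
    change ψ (T.1 * S.1).trace = 1 at h1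
    rw [hT] at h1
    exact hψ h1
  exact AddChar.sum_eq_zero_of_ne_one hΛ

/-- the strictly lower triangular part -/
def loPart (M : Matrix (Fin n) (Fin n) F) : Matrix (Fin n) (Fin n) F :=
  Matrix.of fun i j => if j < i then M i j else 0

/-- the upper triangular matrix with the same quadratic form -/
def utNorm (M : Matrix (Fin n) (Fin n) F) : utSub F n :=
  ⟨M - loPart M + (loPart M)ᵀ, by
    intro i j h
    simp only [Matrix.add_apply, Matrix.sub_apply, Matrix.transpose_apply, loPart, Matrix.of_apply]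
    rw [if_pos h, if_neg (not_lt.2 h.le)]
    simp⟩

theorem utNorm_val (M : Matrix (Fin n) (Fin n) F) :
    (utNorm M).1 = M - loPart M + (loPart M)ᵀ := rfl

theorem trace_utNorm (M : Matrix (Fin n) (Fin n) F) (S : symSub F (Fin n)) :
    ((utNorm M).1 * S.1).trace = (M * S.1).trace := by
  rw [utNorm_val, Matrix.add_mul, Matrix.sub_mul, Matrix.trace_add, Matrix.trace_sub]
  have : ((loPart M)ᵀ * S.1).trace = (loPart M * S.1).trace := by
    rw [← Matrix.trace_transpose, Matrix.transpose_mul, Matrix.transpose_transpose,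
      mem_symSub.1 S.2, Matrix.trace_mul_comm]
  rw [this]
  ring

theorem tq_apply (C : Matrix (Fin n) (Fin n) F) (x : Fin n → F) :
    Matrix.toQuadraticForm' C x = x ⬝ᵥ (C *ᵥ x) := by
  simp [Matrix.toQuadraticForm', LinearMap.BilinMap.toQuadraticMap_apply,
    Matrix.toLinearMap₂'_apply']

theorem tq_utNorm (M : Matrix (Fin n) (Fin n) F) :
    Matrix.toQuadraticForm' (utNorm M).1 = Matrix.toQuadraticForm' M := by
  ext x
  rw [tq_apply, tq_apply, utNorm_val, Matrix.add_mulVec, Matrix.sub_mulVec, dotProduct_add,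
    dotProduct_sub]
  have : x ⬝ᵥ ((loPart M)ᵀ *ᵥ x) = x ⬝ᵥ (loPart M *ᵥ x) := by
    rw [Matrix.dotProduct_mulVec, Matrix.vecMul_transpose, dotProduct_comm]
  rw [this]
  ring

theorem tq_comp (C : Matrix (Fin n) (Fin n) F) (g : (Fin n → F) ≃ₗ[F] (Fin n → F)) :
    (Matrix.toQuadraticForm' C).comp g.toLinearMap
      = Matrix.toQuadraticForm' ((LinearMap.toMatrix' g.toLinearMap)ᵀ * C *
        LinearMap.toMatrix' g.toLinearMap) := by
  ext x
  rw [QuadraticMap.comp_apply, tq_apply, tq_apply, ← Matrix.mulVec_mulVec, ← Matrix.mulVec_mulVec,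
    LinearMap.toMatrix'_mulVec, Matrix.dotProduct_mulVec x, Matrix.vecMul_transpose,
    LinearMap.toMatrix'_mulVec]

theorem tq_polar (C : Matrix (Fin n) (Fin n) F) (i j : Fin n) :
    QuadraticMap.polar (Matrix.toQuadraticForm' C) (Pi.single i 1) (Pi.single j 1)
      = C i j + C j i := by
  unfold QuadraticMap.polar
  rw [tq_apply, tq_apply, tq_apply]
  simp only [Matrix.mulVec_add, add_dotProduct, dotProduct_add, Matrix.mulVec_single_one,
    single_one_dotProduct, Matrix.col_apply]
  ring

theorem sp_not_ker' {m : ℕ} (hperf : commutator (symplecticGroup (Fin m) F) = ⊤)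
    {χ : symplecticGroup (Fin m) F → ℂ}
    (hχ : IsIrrCharacter (symplecticGroup (Fin m) F) χ) (h1 : χ 1 ≠ 1)
    {g : symplecticGroup (Fin m) F}
    (hg : g ∉ Subgroup.center (symplecticGroup (Fin m) F)) : χ g ≠ χ 1 := by
  classical
  have := Fintype.ofFinite (symplecticGroup (Fin m) F)
  intro h
  have hn' := Helper80.charKer_normal (irr_char hχ)
  rcases Helper5.sp_normal_le_center_or (Helper80.charKer χ (irr_char hχ)) with hb | ht
  · exact hg (hb h)
  · rw [hperf, top_le_iff] at ht
    have hall : ∀ g, χ g = χ 1 := by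
      intro g
      have : g ∈ Helper80.charKer χ (irr_char hχ) := by rw [ht]; trivial
      exact this
    have h2 := irr_inner_self hχ
    unfold classInner at h2
    simp_rw [hall] at h2
    obtain ⟨k, hk⟩ := char_one_nat (irr_char hχ)
    rw [hk] at h2
    rw [Finset.sum_const, Finset.card_univ, nsmul_eq_mul, Complex.conj_natCast,
      Nat.card_eq_fintype_card] at h2
    have hc : (Fintype.card (symplecticGroup (Fin m) F) : ℂ) ≠ 0 := by
      exact_mod_cast Fintype.card_ne_zero
    rw [← mul_assoc, inv_mul_cancel₀ hc, one_mul] at h2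
    have h3 : k * k = 1 := by exact_mod_cast h2
    have h4 : k = 1 := Nat.eq_one_of_mul_eq_one_right h3
    apply h1
    rw [hk, h4]
    simp

/-- the bound for `Sp_{2n}(q)`, `q` even -/
theorem sp_even_bound (m : ℕ) (heven : Even (Fintype.card F))
    (hex : (m + 2, Fintype.card F) ≠ (2, 2))
    {χ : symplecticGroup (Fin (m + 2)) F → ℂ}
    (hχ : IsIrrCharacter (symplecticGroup (Fin (m + 2)) F) χ) (h1 : χ 1 ≠ 1) {k : ℕ}
    (hk : χ 1 = k) :
    (Fintype.card F ^ (m + 2) - 1) * (Fintype.card F ^ (m + 2) - Fintype.card F)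
      ≤ 2 * (Fintype.card F + 1) * k := by
  classical
  have hchar : ringChar F = 2 := FiniteField.even_card_iff_char_two.2 (Nat.even_iff.1 heven)
  have : CharP F 2 := ringChar.of_eq hchar
  have hq2 : 2 ≤ Fintype.card F := Fintype.one_lt_card
  have hperf : commutator (symplecticGroup (Fin (m + 2)) F) = ⊤ := by
    apply Helper5.sp_commutator_eq_top
    by_cases hm : m = 0
    · right
      left
      refine ⟨by omega, ?_⟩
      by_contra hc
      apply hex
      rw [hm]
      have : Fintype.card F = 2 := by omega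
      rw [this]
    · left
      omega
  obtain ⟨ψ, hψ⟩ := exists_addChar_one_ne (F := F)
  obtain ⟨𝒮, hcard, hker, hinv⟩ := abstract_siegel2 (irr_char hχ)
    (uHom (F := F) (ι := Fin (m + 2))) (utChar ψ) symUtEquiv (fun z hz => sum_utChar hψ hz) hk
  set 𝒬 : Finset (QuadraticForm F (Fin (m + 2) → F)) :=
    𝒮.image (fun C => Matrix.toQuadraticForm' C.1) with h𝒬
  have hcl : ∀ g : (Fin (m + 2) → F) ≃ₗ[F] (Fin (m + 2) → F), ∀ Q ∈ 𝒬,
      Q.comp g.toLinearMap ∈ 𝒬 := by
    intro g Q hQ
    obtain ⟨C, hC, rfl⟩ := Finset.mem_image.1 hQ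
    set A := LinearMap.toMatrix' g.toLinearMap with hA
    have hdet : A.det ≠ 0 := by
      rw [hA, LinearMap.det_toMatrix']
      exact (LinearEquiv.isUnit_det' g).ne_zero
    refine Finset.mem_image.2 ⟨utNorm (Aᵀ * C.1 * A), ?_, ?_⟩
    · apply hinv (scong A) (fun C => utNorm (Aᵀ * C.1 * A)) (scong_bijective hdet) _ _ C hC
      · intro S
        rw [uHom_apply, uHom_apply, ← lS_conj hdet]
        exact irr_cf hχ _ _
      · intro T S
        rw [utChar_apply, utChar_apply, trace_utNorm, scong_val]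
        congr 1
        rw [Matrix.mul_assoc, Matrix.mul_assoc, Matrix.trace_mul_comm, Matrix.mul_assoc,
          Matrix.mul_assoc]
    · rw [tq_utNorm, tq_comp]
  obtain ⟨C, hC, hC01⟩ : ∃ C ∈ 𝒮, C.1 0 1 + C.1 1 0 ≠ 0 := by
    by_contra hcon
    push Not at hcon
    set S₀ : symSub F (Fin (m + 2)) := ⟨Matrix.single 0 1 1 + Matrix.single 1 0 1, by
      rw [mem_symSub, Matrix.transpose_add, Matrix.transpose_single, Matrix.transpose_single]
      exact add_comm _ _⟩ with hS₀
    have hS₀ne : S₀ ≠ 0 := by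
      intro h
      have h2 := congrArg Subtype.val h
      have h3 := congrFun (congrFun h2 0) 1
      simp [hS₀] at h3
    have h2 := hker S₀ (by
      intro T hT
      rw [utChar_apply, Matrix.trace_mul_comm]
      simp only [hS₀]
      rw [Matrix.add_mul, Matrix.trace_add, Matrix.trace_single_mul, Matrix.trace_single_mul,
        one_smul, one_smul, add_comm, hcon T hT, AddChar.map_zero_eq_one])
    refine sp_not_ker' hperf hχ h1 ?_ h2
    intro hc
    rw [uHom_apply] at hc
    obtain ⟨c, hc⟩ := Helper5.sp_center_scalar (m + 2) _ hc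
    exact uS_not_scalar hS₀ne c hc
  have hb := quad_orbit_bound 𝒬 hcl (Finset.mem_image_of_mem _ hC)
    (x := Pi.single 0 1) (y := Pi.single 1 1) (by rw [tq_polar]; exact hC01)
  refine hb.trans (Nat.mul_le_mul_left _ (Finset.card_image_le.trans hcard))

end Cfsg.Agent.Lib.Helper39.Weil
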