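import Cfsg.Agent.Lib.Helper39.SU.Trans

/-!
# Orbits of the general linear group on symmetric matrices (odd characteristic)
-/

set_option autoImplicit false
set_option linter.unusedSectionVars false

namespace Cfsg.Agent.Lib.Helper39.Weil

open Matrix Module Cfsg.Agent.Lib.Helper43 Cfsg.Agent.Lib.Helper39.SUDeg

variable {F : Type*} [Field F] {ι : Type*} [Fintype ι] [DecidableEq ι]

/-- the bilinear form of a matrix -/
def bv (T : Matrix ι ι F) (x y : ι → F) : F := x ⬝ᵥ (T *ᵥ y)

theorem bv_add_left (T : Matrix ι ι F) (x x' y : ι → F) : bv T (x + x') y = bv T x y + bv T x' y :=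
  add_dotProduct _ _ _

theorem bv_add_right (T : Matrix ι ι F) (x y y' : ι → F) :
    bv T x (y + y') = bv T x y + bv T x y' := by
  unfold bv
  rw [Matrix.mulVec_add, dotProduct_add]

theorem bv_smul_left (T : Matrix ι ι F) (c : F) (x y : ι → F) : bv T (c • x) y = c * bv T x y :=
  smul_dotProduct _ _ _

theorem bv_smul_right (T : Matrix ι ι F) (c : F) (x y : ι → F) :
    bv T x (c • y) = c * bv T x y := by
  unfold bv
  rw [Matrix.mulVec_smul, dotProduct_smul, smul_eq_mul]

theorem bv_comm {T : Matrix ι ι F} (hT : Tᵀ = T) (x y : ι → F) : bv T x y = bv T y x := by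
  unfold bv
  rw [Matrix.dotProduct_mulVec, ← Matrix.mulVec_transpose, hT, dotProduct_comm]

theorem bv_single (T : Matrix ι ι F) (i j : ι) : bv T (Pi.single i 1) (Pi.single j 1) = T i j := by
  unfold bv
  rw [Matrix.mulVec_single_one, single_one_dotProduct]
  rfl

theorem bv_sub (T T' : Matrix ι ι F) (x y : ι → F) : bv (T - T') x y = bv T x y - bv T' x y := by
  unfold bv
  rw [Matrix.sub_mulVec, dotProduct_sub]

theorem bv_rank_one (t : F) (u x y : ι → F) :
    bv (t • vecMulVec u u) x y = t * ((u ⬝ᵥ x) * (u ⬝ᵥ y)) := by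
  unfold bv
  rw [Matrix.smul_mulVec, Matrix.vecMulVec_mulVec, dotProduct_smul, smul_eq_mul]
  congr 1
  rw [dotProduct_comm u x]
  simp [dotProduct_smul, mul_comm]

theorem sym_exists_ne {T : Matrix ι ι F} (hT : Tᵀ = T) (hT0 : T ≠ 0) (h2 : (2 : F) ≠ 0) :
    ∃ v, bv T v v ≠ 0 := by
  by_contra hcon
  push Not at hcon
  apply hT0
  ext i j
  have h1 := hcon (Pi.single i 1 + Pi.single j 1)
  rw [bv_add_left, bv_add_right, bv_add_right, hcon, hcon, bv_single, bv_single] at h1
  have h3 : T j i = T i j := by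
    conv_lhs => rw [← hT]
    rfl
  rw [h3] at h1
  have h4 : 2 * T i j = 0 := by linear_combination h1
  exact (mul_eq_zero.1 h4).resolve_left h2

theorem sym_dichotomy [Fintype F] {T : Matrix ι ι F} (hT : Tᵀ = T) (hT0 : T ≠ 0)
    (hodd : Fintype.card F % 2 = 1) (h2 : (2 : F) ≠ 0) :
    (∀ c : F, ∃ x, bv T x x = c) ∨ ∃ (u : ι → F) (t : F), u ≠ 0 ∧ t ≠ 0 ∧ T = t • vecMulVec u u := by
  obtain ⟨v, hv⟩ := sym_exists_ne hT hT0 h2
  set a := bv T v v with ha
  set u := T *ᵥ v with hu
  have hux : ∀ x, u ⬝ᵥ x = bv T v x := by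
    intro x
    rw [bv_comm hT, dotProduct_comm]
    rfl
  by_cases hT' : T - a⁻¹ • vecMulVec u u = 0
  · right
    refine ⟨u, a⁻¹, ?_, inv_ne_zero hv, sub_eq_zero.1 hT'⟩
    intro h0
    apply hv
    rw [ha, ← hux, h0, zero_dotProduct]
  · left
    have hsym : (T - a⁻¹ • vecMulVec u u)ᵀ = T - a⁻¹ • vecMulVec u u := by
      rw [Matrix.transpose_sub, hT, Matrix.transpose_smul, Matrix.transpose_vecMulVec]
    obtain ⟨w, hw⟩ := sym_exists_ne hsym hT' h2
    rw [bv_sub, bv_rank_one, hux] at hw
    set s := bv T v w with hs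
    set w' := w + (-(s / a)) • v with hw'
    have h1 : bv T v w' = 0 := by
      rw [hw', bv_add_right, bv_smul_right, ← hs, ← ha]
      field_simp
      ring
    have h3 : bv T w' w' = bv T w w - a⁻¹ * (s * s) := by
      rw [hw', bv_add_left, bv_add_right, bv_add_right, bv_smul_left, bv_smul_left, bv_smul_right,
        bv_smul_right, bv_comm hT w v, ← hs, ← ha]
      field_simp
      ring
    set b := bv T w' w' with hb
    have hb0 : b ≠ 0 := by rw [h3]; exact hw
    intro c
    obtain ⟨x, y, hxy⟩ := FiniteField.exists_root_sum_quadratic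
      (f := Polynomial.C a * Polynomial.X ^ 2) (g := Polynomial.C b * Polynomial.X ^ 2 - Polynomial.C c)
      (by rw [Polynomial.degree_C_mul_X_pow 2 hv]; rfl)
      (by
        rw [Polynomial.degree_sub_eq_left_of_degree_lt]
        · rw [Polynomial.degree_C_mul_X_pow 2 hb0]; rfl
        · rw [Polynomial.degree_C_mul_X_pow 2 hb0]
          exact lt_of_le_of_lt Polynomial.degree_C_le (by decide)) hodd
    simp only [Polynomial.eval_mul, Polynomial.eval_C, Polynomial.eval_pow, Polynomial.eval_X,
      Polynomial.eval_sub] at hxy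
    refine ⟨x • v + y • w', ?_⟩
    simp only [bv_add_left, bv_add_right, bv_smul_left, bv_smul_right]
    rw [bv_comm hT w' v, h1, ← ha, ← hb]
    linear_combination hxy

/-- congruence of a rank one matrix -/
theorem cong_rank_one (A : Matrix ι ι F) (t : F) (u : ι → F) :
    Aᵀ * (t • vecMulVec u u) * A = t • vecMulVec (Aᵀ *ᵥ u) (Aᵀ *ᵥ u) := by
  rw [Matrix.mul_smul, Matrix.smul_mul, Matrix.mul_vecMulVec, Matrix.vecMulVec_mul,
    Matrix.mulVec_transpose]

theorem rank_one_fibre' {t : F} (ht : t ≠ 0) {y y' : ι → F} (hy : y ≠ 0)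
    (h : t • vecMulVec y' y' = t • vecMulVec y y) : y' = y ∨ y' = -y := by
  have h1 : ∀ i j, y' i * y' j = y i * y j := by
    intro i j
    have := congrFun (congrFun h i) j
    simp only [Matrix.smul_apply, vecMulVec_apply, smul_eq_mul] at this
    exact mul_left_cancel₀ ht this
  obtain ⟨j, hj⟩ : ∃ j, y j ≠ 0 := by
    by_contra hcon
    push Not at hcon
    exact hy (funext hcon)
  have h3 : y' j = y j ∨ y' j = - y j := by
    apply mul_self_eq_mul_self_iff.1
    exact h1 j j
  rcases h3 with h3 | h3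
  · left
    ext i
    have := h1 i j
    rw [h3] at this
    exact mul_right_cancel₀ hj this
  · right
    ext i
    have := h1 i j
    rw [h3] at this
    have h4 : (- y' i) * y j = y i * y j := by linear_combination this
    have := mul_right_cancel₀ hj h4
    rw [Pi.neg_apply, ← this, neg_neg]

theorem exists_matrix_transpose (u y : ι → F) (hu : u ≠ 0) (hy : y ≠ 0) :
    ∃ A : Matrix ι ι F, A.det ≠ 0 ∧ Aᵀ *ᵥ u = y := by
  obtain ⟨g, hg⟩ := exists_equiv_apply_eq (K := F) rfl u y hu hy
  refine ⟨(LinearMap.toMatrix' (g : (ι → F) →ₗ[F] (ι → F)))ᵀ, ?_, ?_⟩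
  · rw [Matrix.det_transpose, LinearMap.det_toMatrix']
    exact (LinearEquiv.isUnit_det' g).ne_zero
  · rw [Matrix.transpose_transpose, LinearMap.toMatrix'_mulVec]
    exact hg

theorem exists_matrix_col' [Fintype F] (i₀ : ι) (x w z : ι → F) (h : z i₀ = x ⬝ᵥ w) (hne : z i₀ ≠ 0) :
    ∃ A : Matrix ι ι F, A.det ≠ 0 ∧ A *ᵥ Pi.single i₀ 1 = x ∧ Aᵀ *ᵥ w = z := by
  obtain ⟨g, hg1, hg2⟩ := exists_equiv_nonflag (K := F) (Pi.single i₀ 1) x (dotL z) (dotL w) (by
    rw [dotL_apply, dotL_apply, dotProduct_single_one, h, dotProduct_comm]) (by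
    rwa [dotL_apply, dotProduct_single_one])
  set A : Matrix ι ι F := LinearMap.toMatrix' (g : (ι → F) →ₗ[F] (ι → F)) with hA
  have hAv : ∀ v, A *ᵥ v = g v := fun v => LinearMap.toMatrix'_mulVec _ v
  refine ⟨A, ?_, ?_, ?_⟩
  · rw [hA, LinearMap.det_toMatrix']
    exact (LinearEquiv.isUnit_det' g).ne_zero
  · rw [hAv, hg1]
  · rw [Matrix.mulVec_transpose]
    ext j
    have h6 := hg2 (Pi.single j 1)
    rw [dotL_apply, dotL_apply, dotProduct_single_one, ← hAv, Matrix.mulVec_single_one] at h6
    rw [← h6]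
    rfl

variable [Fintype F] [DecidableEq F]

theorem sym_orbit_bound (i₀ : ι) (hodd : Fintype.card F % 2 = 1) (𝒯 : Finset (Matrix ι ι F))
    (hne : 𝒯.Nonempty) (h0 : (0 : Matrix ι ι F) ∉ 𝒯) (hsym : ∀ T ∈ 𝒯, Tᵀ = T)
    (h𝒯 : ∀ A : Matrix ι ι F, A.det ≠ 0 → ∀ T ∈ 𝒯, Aᵀ * T * A ∈ 𝒯) :
    Fintype.card F ^ Fintype.card ι - 1 ≤ 2 * 𝒯.card := by
  have h2 : (2 : F) ≠ 0 := by
    apply Ring.two_ne_zero
    intro h
    rw [FiniteField.even_card_iff_char_two] at h
    omega
  obtain ⟨T, hT⟩ := hne
  have hT0 : T ≠ 0 := by rintro rfl; exact h0 hT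
  have hTs := hsym T hT
  rcases sym_dichotomy hTs hT0 hodd h2 with huniv | ⟨u, t, hu, ht, hTu⟩
  · -- universal
    set Ψ : Matrix ι ι F → (ι → F) := fun T' => T' *ᵥ Pi.single i₀ 1 with hΨ
    set Y : Finset (ι → F) := Finset.univ.filter (fun z => z i₀ ≠ 0) with hY
    have hsub : Y ⊆ 𝒯.image Ψ := by
      intro z hz
      rw [hY, Finset.mem_filter] at hz
      obtain ⟨x, hx⟩ := huniv (z i₀)
      obtain ⟨A, hA1, hA2, hA3⟩ := exists_matrix_col' i₀ x (T *ᵥ x) z hx.symm hz.2
      refine Finset.mem_image.2 ⟨Aᵀ * T * A, h𝒯 A hA1 T hT, ?_⟩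
      rw [hΨ]
      simp only
      rw [← Matrix.mulVec_mulVec, hA2, ← Matrix.mulVec_mulVec, hA3]
    have hYc : Y.card + Fintype.card F ^ (Fintype.card ι - 1) = Fintype.card F ^ Fintype.card ι := by
      have h1 : (Finset.univ.filter (fun z : ι → F => ¬ z i₀ ≠ 0)).card
          = Fintype.card F ^ (Fintype.card ι - 1) := by
        have e : (Finset.univ.filter (fun z : ι → F => ¬ z i₀ ≠ 0)).card
            = Fintype.card ({j // j ≠ i₀} → F) := by
          rw [← Fintype.card_subtype]
          apply Fintype.card_congr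
          exact
            { toFun := fun z j => z.1 j.1
              invFun := fun y => ⟨fun j => if h : j = i₀ then 0 else y ⟨j, h⟩, by simp⟩
              left_inv := by
                intro z
                apply Subtype.ext
                funext j
                by_cases hj : j = i₀
                · subst hj
                  have := z.2
                  push Not at this
                  simp [this]
                · simp [hj]
              right_inv := by
                intro y
                funext j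
                simp [j.2] }
        rw [e, Fintype.card_fun]
        congr 1
        exact Set.card_ne_eq i₀
      rw [← h1, hY, Finset.card_filter_add_card_filter_not, Finset.card_univ, Fintype.card_fun]
    have hle : Y.card ≤ 𝒯.card := (Finset.card_le_card hsub).trans Finset.card_image_le
    obtain ⟨m, hm⟩ : ∃ m, Fintype.card ι = m + 1 :=
      ⟨Fintype.card ι - 1, by have := Fintype.card_pos_iff.2 ⟨i₀⟩; omega⟩
    rw [hm] at hYc ⊢
    simp only [Nat.add_sub_cancel] at hYc
    have hq : 2 ≤ Fintype.card F := Fintype.one_lt_card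
    rw [pow_succ] at hYc ⊢
    set P := Fintype.card F ^ m with hP
    have : 2 * P ≤ P * Fintype.card F := by rw [mul_comm]; exact Nat.mul_le_mul_left _ hq
    omega
  · -- rank one
    set s : Finset (ι → F) := Finset.univ.erase 0 with hs
    set f : (ι → F) → Matrix ι ι F := fun y => t • vecMulVec y y with hf
    have hsc : s.card = Fintype.card F ^ Fintype.card ι - 1 := by
      rw [hs, Finset.card_erase_of_mem (Finset.mem_univ _), Finset.card_univ, Fintype.card_fun]
    have h1 : s.card ≤ 2 * (s.image f).card := by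
      apply Finset.card_le_mul_card_image
      intro M hM
      obtain ⟨y, hy, rfl⟩ := Finset.mem_image.1 hM
      have hy0 : y ≠ 0 := Finset.ne_of_mem_erase hy
      calc _ ≤ ({y, -y} : Finset (ι → F)).card := by
            apply Finset.card_le_card
            intro y' hy'
            rw [Finset.mem_filter] at hy'
            rcases rank_one_fibre' ht hy0 hy'.2 with h | h
            · simp [h]
            · simp [h]
        _ ≤ 2 := Finset.card_le_two
    rw [← hsc]
    refine h1.trans (Nat.mul_le_mul_left _ (Finset.card_le_card ?_))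
    intro M hM
    obtain ⟨y, hy, rfl⟩ := Finset.mem_image.1 hM
    obtain ⟨A, hA1, hA2⟩ := exists_matrix_transpose u y hu (Finset.ne_of_mem_erase hy)
    have := h𝒯 A hA1 T hT
    rw [hTu, cong_rank_one, hA2] at this
    exact this

end Cfsg.Agent.Lib.Helper39.Weil
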